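import Cfsg.Agent.H93.Basic
import Mathlib.GroupTheory.Nilpotent

/-!
Finite `p`-groups with an abelian subgroup `A` of index `p`: commutators with an element outside `A`.
-/
set_option autoImplicit false

namespace Cfsg.Agent.H80.UA

open scoped commutatorElement

variable {Ω : Type*} [Group Ω] {S A : Subgroup Ω} {p : ℕ}

/-- The data: `A` is an abelian subgroup of index `p` of the nonabelian finite `p`-group `S`. -/
structure Setup (p : ℕ) (S A : Subgroup Ω) : Prop where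
  isP : IsPGroup p S
  le : A ≤ S
  comm : IsMulCommutative A
  index : (A.subgroupOf S).index = p
  nonab : ¬ IsMulCommutative S

/-- The centre of `S` as a subgroup of `Ω`. -/
def ctr (S : Subgroup Ω) : Subgroup Ω := S ⊓ Subgroup.centralizer (S : Set Ω)

/-- The second centre of `S` as a subgroup of `Ω`. -/
def ctr2 (S : Subgroup Ω) : Subgroup Ω := (Subgroup.upperCentralSeries S 2).map S.subtype

theorem mem_ctr {z : Ω} : z ∈ ctr S ↔ z ∈ S ∧ ∀ s ∈ S, s * z = z * s := by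
  rw [ctr, Subgroup.mem_inf, Subgroup.mem_centralizer_iff]
  rfl

theorem ctr_le : ctr S ≤ S := inf_le_left

theorem mem_center_iff_ctr {z : S} : z ∈ Subgroup.center S ↔ (z : Ω) ∈ ctr S := by
  rw [Subgroup.mem_center_iff, mem_ctr]
  exact ⟨fun h => ⟨z.2, fun s hs => congrArg Subtype.val (h ⟨s, hs⟩)⟩,
    fun h s => Subtype.ext (h.2 s s.2)⟩

theorem mem_ctr2 {y : Ω} : y ∈ ctr2 S ↔ y ∈ S ∧ ∀ s ∈ S, ⁅y, s⁆ ∈ ctr S := by
  constructor
  · rintro ⟨z, hz, rfl⟩
    rw [SetLike.mem_coe, Subgroup.mem_upperCentralSeries_succ_iff, Subgroup.upperCentralSeries_one] at hz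
    refine ⟨z.2, fun s hs => ?_⟩
    have := mem_center_iff_ctr.1 (hz ⟨s, hs⟩)
    rw [commutatorElement_def] at this ⊢
    simpa using this
  · rintro ⟨hy, h⟩
    refine ⟨⟨y, hy⟩, ?_, rfl⟩
    rw [SetLike.mem_coe, Subgroup.mem_upperCentralSeries_succ_iff, Subgroup.upperCentralSeries_one]
    intro s
    rw [mem_center_iff_ctr]
    have := h s s.2
    rw [commutatorElement_def] at this ⊢
    simpa using this

theorem ctr_le_ctr2 : ctr S ≤ ctr2 S := by
  intro z hz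
  refine mem_ctr2.2 ⟨hz.1, fun s hs => ?_⟩
  have h := (mem_ctr.1 hz).2 s hs
  rw [commutatorElement_def, ← h, mul_inv_cancel_right, mul_inv_cancel]
  exact one_mem _

namespace Setup

variable (D : Setup p S A)

include D

variable [Finite S] [Fact p.Prime]

theorem finiteA : Finite A := Finite.of_injective _ (Subgroup.inclusion_injective D.le)

theorem normalA : (A.subgroupOf S).Normal := by
  refine Subgroup.normal_of_index_eq_minFac_card ?_
  obtain ⟨n, hn⟩ := D.isP.exists_card_eq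
  have hdvd := (A.subgroupOf S).index_dvd_card
  rw [D.index, hn] at hdvd
  have hn0 : n ≠ 0 := by
    rintro rfl
    exact (Fact.out : p.Prime).not_dvd_one (by simpa using hdvd)
  rw [D.index, hn, Nat.pow_minFac hn0, (Fact.out : p.Prime).minFac_eq]

theorem conj_mem {s a : Ω} (hs : s ∈ S) (ha : a ∈ A) : s * a * s⁻¹ ∈ A :=
  D.normalA.conj_mem ⟨a, D.le ha⟩ ha ⟨s, hs⟩

theorem commute_of_mem {a b : Ω} (ha : a ∈ A) (hb : b ∈ A) : a * b = b * a :=
  congrArg Subtype.val (D.comm.is_comm.comm ⟨a, ha⟩ ⟨b, hb⟩)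

omit [Finite S] in
theorem pow_mem_iff {x : Ω} (hx : x ∈ S) (hxA : x ∉ A) (hn : (A.subgroupOf S).Normal) (i : ℤ) :
    x ^ i ∈ A ↔ (p : ℤ) ∣ i := by
  have h1 : ((⟨x, hx⟩ : S) : S ⧸ A.subgroupOf S) ≠ 1 := fun h => hxA (Subgroup.mem_subgroupOf.1 ((QuotientGroup.eq_one_iff (⟨x, hx⟩ : S)).1 h))
  have hc : Nat.card (S ⧸ A.subgroupOf S) = p := by rw [← Subgroup.index_eq_card]; exact D.index
  have ho : orderOf ((⟨x, hx⟩ : S) : S ⧸ A.subgroupOf S) = p := by
    refine orderOf_eq_prime ?_ h1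
    rw [← hc, pow_card_eq_one']
  rw [← ho, orderOf_dvd_iff_zpow_eq_one, ← QuotientGroup.mk_zpow, QuotientGroup.eq_one_iff,
    Subgroup.mem_subgroupOf]
  simp

/-- `S = A⟨x⟩`. -/
theorem exists_eq_mul {x : Ω} (hx : x ∈ S) (hxA : x ∉ A) {s : Ω} (hs : s ∈ S) :
    ∃ a ∈ A, ∃ i : ℤ, s = a * x ^ i := by
  haveI := D.normalA
  have hc : Nat.card (S ⧸ A.subgroupOf S) = p := by rw [← Subgroup.index_eq_card]; exact D.index
  have h1 : ((⟨x, hx⟩ : S) : S ⧸ A.subgroupOf S) ≠ 1 := fun h => hxA (Subgroup.mem_subgroupOf.1 ((QuotientGroup.eq_one_iff (⟨x, hx⟩ : S)).1 h))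
  obtain ⟨i, hi⟩ := Subgroup.mem_zpowers_iff.1
    (mem_zpowers_of_prime_card (g' := ((⟨s, hs⟩ : S) : S ⧸ A.subgroupOf S)) hc h1)
  refine ⟨s * x ^ (-i), ?_, i, by rw [zpow_neg, inv_mul_cancel_right]⟩
  rw [← QuotientGroup.mk_zpow, QuotientGroup.eq, Subgroup.mem_subgroupOf] at hi
  have h2 : (x ^ i)⁻¹ * s ∈ A := by simpa using hi
  have h3 := D.conj_mem (S.zpow_mem hx i) h2
  simpa [mul_assoc, zpow_neg] using h3

theorem mem_ctr_iff {x : Ω} (hx : x ∈ S) (hxA : x ∉ A) {a : Ω} (ha : a ∈ A) :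
    a ∈ ctr S ↔ x * a = a * x := by
  refine ⟨fun h => (mem_ctr.1 h).2 x hx, fun h => mem_ctr.2 ⟨D.le ha, fun s hs => ?_⟩⟩
  obtain ⟨b, hb, i, rfl⟩ := D.exists_eq_mul hx hxA hs
  exact (Commute.mul_left (D.commute_of_mem hb ha : Commute b a) (Commute.zpow_left (show Commute x a from h) i)).eq

theorem ctr_le_A : ctr S ≤ A := by
  intro z hz
  by_contra hzA
  refine D.nonab ⟨⟨fun s t => ?_⟩⟩
  obtain ⟨a, ha, i, hsa⟩ := D.exists_eq_mul hz.1 hzA s.2
  obtain ⟨b, hb, j, htb⟩ := D.exists_eq_mul hz.1 hzA t.2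
  apply Subtype.ext
  show (s : Ω) * t = t * s
  have hc : ∀ c ∈ A, Commute z c := fun c hc => ((mem_ctr.1 hz).2 c (D.le hc) : Commute c z).symm
  have e : Commute (a * z ^ i) (b * z ^ j) :=
    (Commute.mul_left (Commute.mul_right (show Commute a b from D.commute_of_mem ha hb) ((hc a ha).symm.zpow_right j))
      (((hc b hb).zpow_left i).mul_right (Commute.zpow_zpow_self z i j)))
  rw [hsa, htb]
  exact e.eq

/-- Commutator with `x`, as a homomorphism on `A`. -/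
def delta {x : Ω} (hx : x ∈ S) : A →* A where
  toFun a := ⟨⁅(a : Ω), x⁆, by
    rw [commutatorElement_def, mul_assoc, mul_assoc, ← mul_assoc x]
    exact A.mul_mem a.2 (D.conj_mem hx (A.inv_mem a.2))⟩
  map_one' := Subtype.ext (by simp)
  map_mul' a b := Subtype.ext (by
    show ⁅(a : Ω) * b, x⁆ = ⁅(a : Ω), x⁆ * ⁅(b : Ω), x⁆
    have e1 : x * (a : Ω)⁻¹ * x⁻¹ ∈ A := D.conj_mem hx (A.inv_mem a.2)
    have e2 : x * (b : Ω)⁻¹ * x⁻¹ ∈ A := D.conj_mem hx (A.inv_mem b.2)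
    calc ⁅(a : Ω) * b, x⁆ = a * (b * ((x * (b : Ω)⁻¹ * x⁻¹) * (x * (a : Ω)⁻¹ * x⁻¹))) := by
          rw [commutatorElement_def]; group
      _ = a * (b * ((x * (a : Ω)⁻¹ * x⁻¹) * (x * (b : Ω)⁻¹ * x⁻¹))) := by rw [D.commute_of_mem e1 e2]
      _ = a * ((x * (a : Ω)⁻¹ * x⁻¹) * (b * (x * (b : Ω)⁻¹ * x⁻¹))) := by
          rw [← mul_assoc (b : Ω), D.commute_of_mem b.2 e1, mul_assoc]
      _ = _ := by rw [commutatorElement_def, commutatorElement_def]; group)

@[simp] theorem coe_delta {x : Ω} (hx : x ∈ S) (a : A) : (D.delta hx a : Ω) = ⁅(a : Ω), x⁆ := rfl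

theorem delta_eq_one {x : Ω} (hx : x ∈ S) (hxA : x ∉ A) (a : A) :
    D.delta hx a = 1 ↔ (a : Ω) ∈ ctr S := by
  rw [D.mem_ctr_iff hx hxA a.2, Subtype.ext_iff, coe_delta, Subgroup.coe_one,
    commutatorElement_eq_one_iff_mul_comm]
  exact eq_comm

theorem mem_ctr2_iff {x : Ω} (hx : x ∈ S) (hxA : x ∉ A) {a : Ω} (ha : a ∈ A) :
    a ∈ ctr2 S ↔ ⁅a, x⁆ ∈ ctr S := by
  refine ⟨fun h => (mem_ctr2.1 h).2 x hx, fun h => mem_ctr2.2 ⟨D.le ha, fun s hs => ?_⟩⟩
  let K : Subgroup S := (Subgroup.centralizer {QuotientGroup.mk' (Subgroup.center S) ⟨a, D.le ha⟩}).comap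
    (QuotientGroup.mk' (Subgroup.center S))
  have hmem : ∀ t : S, t ∈ K ↔ ⁅a, (t : Ω)⁆ ∈ ctr S := by
    intro t
    simp only [K, Subgroup.mem_comap, Subgroup.mem_centralizer_singleton_iff]
    rw [eq_comm, ← commutatorElement_eq_one_iff_mul_comm, ← map_commutatorElement, QuotientGroup.mk'_apply,
      QuotientGroup.eq_one_iff, mem_center_iff_ctr]
    rfl
  have hK : K = ⊤ := by
    refine (Subgroup.eq_top_iff' K).2 fun t => ?_
    obtain ⟨b, hb, i, hbi⟩ := D.exists_eq_mul hx hxA t.2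
    have : t = ⟨b, D.le hb⟩ * ⟨x, hx⟩ ^ i := Subtype.ext (by simpa using hbi)
    rw [this]
    refine K.mul_mem ((hmem _).2 ?_) (K.zpow_mem ((hmem _).2 h) i)
    rw [show ⁅a, b⁆ = 1 from commutatorElement_eq_one_iff_mul_comm.2 (D.commute_of_mem ha hb)]
    exact one_mem _
  exact (hmem ⟨s, hs⟩).1 (hK ▸ Subgroup.mem_top _)

/-- If the second centre is not in `A` then all commutators are central. -/
theorem class_two (h : ¬ ctr2 S ≤ A) {s t : Ω} (hs : s ∈ S) (ht : t ∈ S) : ⁅s, t⁆ ∈ ctr S := by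
  obtain ⟨y, hy, hyA⟩ := SetLike.not_le_iff_exists.1 h
  obtain ⟨hyS, hy2⟩ := mem_ctr2.1 hy
  obtain ⟨a, ha, i, rfl⟩ := D.exists_eq_mul hyS hyA hs
  have haz : a ∈ ctr2 S := (D.mem_ctr2_iff hyS hyA ha).2 (by
    have := (ctr S).inv_mem (hy2 a (D.le ha))
    rwa [commutatorElement_inv] at this)
  exact (mem_ctr2.1 ((ctr2 S).mul_mem haz ((ctr2 S).zpow_mem hy i))).2 t ht

/-- Iterated commutators with `x` lie in the lower central series. -/
theorem iterate_mem_lcs {x : Ω} (hx : x ∈ S) (a : A) (k : ℕ) :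
    (((D.delta hx)^[k] a : A) : Ω) ∈ Subgroup.lowerCentralSeries S k := by
  induction k with
  | zero => exact D.le a.2
  | succ k ih =>
    rw [Function.iterate_succ_apply', coe_delta]
    exact Subgroup.commutator_mem_commutator ih hx

end Setup

/-- The cardinality of a subgroup of `S` not inside `A`. -/
theorem Setup.card_eq_mul (D : Setup p S A) [Finite S] [Fact p.Prime] {Q : Subgroup Ω} (hQ : Q ≤ S)
    (hQA : ¬ Q ≤ A) : Nat.card Q = p * Nat.card ↥(Q ⊓ A) := by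
  haveI := D.normalA
  have hdvd : A.relIndex Q ∣ p := by
    rw [← Subgroup.relIndex_subgroupOf hQ, ← D.index]
    exact Subgroup.relIndex_dvd_index_of_normal _ _
  have hne : A.relIndex Q ≠ 1 := fun h => hQA (Subgroup.relIndex_eq_one.1 h)
  have he : A.relIndex Q = p := ((Nat.dvd_prime (Fact.out : p.Prime)).1 hdvd).resolve_left hne
  rw [← he, ← Subgroup.inf_relIndex_right]
  have h := ((A ⊓ Q).subgroupOf Q).card_mul_index
  rw [Nat.card_congr (Subgroup.subgroupOfEquivOfLe (inf_le_right : A ⊓ Q ≤ Q)).toEquiv] at h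
  rw [inf_comm Q A, mul_comm]
  exact h.symm

end Cfsg.Agent.H80.UA
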