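import Cfsg.Agent.H80.UA.Maximal

/-!
Saturated systems with trivial core over a `p`-group with an abelian subgroup of index `p` which is not
essential: the centre has order `p`.
-/
set_option autoImplicit false

namespace Cfsg.Agent.H80.UA

open Cfsg Cfsg.FusionSystem
open scoped commutatorElement

variable {Ω : Type*} [Group Ω] {S A : Subgroup Ω} {p : ℕ} [Finite S] [Fact p.Prime] {F : FusionSystem S}

/-- The central commutators. -/
def z0 (S : Subgroup Ω) : Subgroup Ω := ctr S ⊓ (commutator S).map S.subtype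

/-- A map acts on the centre like an automorphism of `S` in the system. -/
def ZAct (F : FusionSystem S) {P : Subgroup Ω} (φ : P →* Ω) : Prop :=
  ∃ β ∈ F.autGroup S, ∀ (z : P) (hz : (z : Ω) ∈ ctr S), φ z = ((β ⟨z, hz.1⟩ : S) : Ω)

theorem aut_mem_ctr (β : MulAut S) {z : S} (hz : (z : Ω) ∈ ctr S) : ((β z : S) : Ω) ∈ ctr S := by
  rw [← mem_center_iff_ctr] at hz ⊢
  rw [Subgroup.mem_center_iff] at hz ⊢
  intro s
  obtain ⟨t, rfl⟩ := β.surjective s
  rw [← map_mul, ← map_mul, hz t]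

theorem aut_mem_z0 (β : MulAut S) {z : S} (hz : (z : Ω) ∈ z0 S) : ((β z : S) : Ω) ∈ z0 S := by
  refine ⟨aut_mem_ctr β hz.1, ?_⟩
  obtain ⟨v, hv, he⟩ := hz.2
  obtain rfl : v = z := Subtype.ext he
  refine ⟨β v, ?_, rfl⟩
  have : (commutator S).map β.toMonoidHom ≤ commutator S := by
    rw [commutator_def, Subgroup.map_commutator]
    exact Subgroup.commutator_mono le_top le_top
  exact this ⟨v, hv, rfl⟩

/-- Maps on subgroups of order exceeding `n` act on the centre like automorphisms of `S`, as soon as the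
automorphisms of essential subgroups of that order do. -/
theorem zAct_of_big (hS : IsPGroup p S) (hF : F.IsSaturated p) {n : ℕ}
    (h : ∀ U, F.IsEssential p U → n < Nat.card U → ∀ α ∈ F.autGroup U, ZAct F (U.subtype.comp α.toMonoidHom))
    {P : Subgroup Ω} {φ : P →* Ω} (hφ : φ ∈ F.Hom P) (hn : n < Nat.card P) : ZAct F φ := by
  refine H93.alperin_essential_induction hS hF (fun P φ => n < Nat.card P → ZAct F φ) ?_ ?_ ?_ hφ hn
  · intro P R hle φ hφ hc hn
    haveI := H93.finite_of_le (S := S) (H93.le_of_hom hφ)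
    obtain ⟨β, hβ, hb⟩ := hc (hn.trans_le (Subgroup.card_le_of_le hle))
    exact ⟨β, hβ, fun z hz => hb (Subgroup.inclusion hle z) hz⟩
  · intro P Q φ ψ hφ hψ hc hc' hh hn
    obtain ⟨β, hβ, hb⟩ := hc hn
    haveI := H93.finite_of_le (S := S) (H93.le_of_hom hψ)
    obtain ⟨γ, hγ, hg⟩ := hc' (hn.trans_le (Nat.card_le_card_of_injective (φ.codRestrict Q hh)
      fun a b e => F.injective_of_mem hφ (congrArg Subtype.val e)))
    refine ⟨γ * β, (F.autGroup S).mul_mem hγ hβ, fun z hz => ?_⟩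
    have h1 : φ z = ((β ⟨z, hz.1⟩ : S) : Ω) := hb z hz
    have h2 : (((φ.codRestrict Q hh z : Q)) : Ω) ∈ ctr S := by
      show φ z ∈ ctr S
      rw [h1]; exact aut_mem_ctr β hz
    show ψ (φ.codRestrict Q hh z) = ((γ (β ⟨z, hz.1⟩) : S) : Ω)
    rw [hg _ h2]
    exact congrArg (fun s => ((γ s : S) : Ω)) (Subtype.ext h1)
  · intro U hU α hα hn
    rcases hU with rfl | hU
    · exact ⟨α, hα, fun z hz => rfl⟩
    · exact h U hU hn α hα

/-- An automorphism of a fully normalized subgroup normalizing `Aut_S` extends to the normalizer. -/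
theorem exists_ext_of_normalizes (hS : IsPGroup p S) (hF : F.IsSaturated p) {U : Subgroup Ω}
    (hU : F.IsFullyNormalized U) {α : MulAut U} (hα : α ∈ F.autGroup U)
    (hn : ∀ γ ∈ autInducedBy S U, α * γ * α⁻¹ ∈ autInducedBy S U) :
    ∃ ψ ∈ F.Hom (normalizerIn S U), ∀ x : U, ψ (Subgroup.inclusion (H93.le_normalizerIn hU.1) x) = α x := by
  have hφ := (H93.mem_autGroup_iff hU.1).1 hα
  have hr : (U.subtype.comp α.toMonoidHom).range = U := by
    apply le_antisymm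
    · rintro _ ⟨x, rfl⟩; exact (α x).2
    · intro x hx; exact ⟨α⁻¹ ⟨x, hx⟩, by simp⟩
  obtain ⟨ψ, hψ, hψe⟩ := H93.exists_extension hφ hr (H93.IsFullyNormalized.isReceptive hS hF hU)
  have hle : normalizerIn S U ≤ extender S U (U.subtype.comp α.toMonoidHom) := by
    intro g hg
    obtain ⟨h, hh, hhe⟩ := H93.mem_autInducedBy.1
      (hn _ (H93.mem_autInducedBy.2 ⟨g, hg.1, fun x => (H93.conjAut_apply S U ⟨g, hg⟩ x)⟩))
    refine H93.mem_extender.2 ⟨hg, h, hh, fun x hx => ?_⟩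
    have := hhe (α x)
    rw [MulAut.mul_apply, MulAut.mul_apply, MulAut.inv_apply_self] at this
    exact this
  exact ⟨_, H93.restrict_mem hψ hle, fun x => hψe x⟩

theorem card_cases (D : Setup p S A) (hF : F.IsSaturated p)
    (huniq : ∀ B : Subgroup Ω, B ≤ S → IsMulCommutative ↥B → (B.subgroupOf S).index = p → B = A)
    (hAe : ¬ F.IsEssential p A) {U : Subgroup Ω} (hU : F.IsEssential p U) :
    ctr2 S ≤ A ∧ Nat.card ↥(ctr2 S) = p * Nat.card ↥(ctr S) ∧ (∃ x ∈ U, x ∉ A) ∧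
    Nat.card ↥(normalizerIn S U) = p * Nat.card U ∧
    ((U ⊓ A = ctr S ∧ Nat.card U = p * Nat.card ↥(ctr S)) ∨
      (U ⊓ A = ctr2 S ∧ Nat.card U = p * (p * Nat.card ↥(ctr S)))) := by
  obtain ⟨h2, hc, ⟨x, hx, hxA, -⟩, hB, hN⟩ :=
    essential_shape D hF huniq hU (fun h => hAe (h ▸ hU))
  refine ⟨h2, hc, ⟨x, hx, hxA⟩, hN, ?_⟩
  have h := D.card_eq_mul hU.1.1 fun h => hxA (h hx)
  rcases hB with hB | hB
  · exact Or.inl ⟨hB, by rw [h, hB]⟩
  · exact Or.inr ⟨hB, by rw [h, hB, hc]⟩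

/-- For the essential subgroups over the second centre. -/
theorem zAct_nonabelian (D : Setup p S A) (hF : F.IsSaturated p)
    (huniq : ∀ B : Subgroup Ω, B ≤ S → IsMulCommutative ↥B → (B.subgroupOf S).index = p → B = A)
    (hAe : ¬ F.IsEssential p A) {U : Subgroup Ω} (hU : F.IsEssential p U) (hB : U ⊓ A = ctr2 S)
    {α : MulAut U} (hα : α ∈ F.autGroup U) : ZAct F (U.subtype.comp α.toMonoidHom) := by
  have hS := D.isP
  have hp := (Fact.out : p.Prime)
  obtain ⟨h2, hc, ⟨x, hx, hxA⟩, hN, hcases⟩ := card_cases D hF huniq hAe hU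
  obtain ⟨hUc, hUn, -⟩ := id hU
  haveI := H93.finite_of_le (S := S) hUn.1
  haveI := H93.finite_mulAut (S := S) hUn.1
  haveI := H93.finite_of_le (S := S) (ctr_le (S := S))
  have hZU : ctr S ≤ U := ctr_le_ctr2.trans (hB.ge.trans inf_le_left)
  -- the centre of `U` is that of `S`
  have hWZ : ∀ z : U, (∀ v : U, v * z = z * v) → (z : Ω) ∈ ctr S := by
    intro z hz
    by_cases hzA : (z : Ω) ∈ A
    · exact (D.mem_ctr_iff (hUn.1 hx) hxA hzA).2 (congrArg Subtype.val (hz ⟨x, hx⟩))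
    · exfalso
      have : ctr2 S ≤ ctr S := fun b hb =>
        (D.mem_ctr_iff (hUn.1 z.2) hzA (h2 hb)).2
          (congrArg Subtype.val (hz ⟨b, (hB.ge hb).1⟩)).symm
      have hle := Subgroup.card_le_of_le this
      rw [hc] at hle
      have h0 : 0 < Nat.card ↥(ctr S) := Nat.card_pos
      have := hp.two_le
      nlinarith
  have hinv : ∀ γ ∈ F.autGroup U, ∀ z : U, (z : Ω) ∈ ctr S → ((γ z : U) : Ω) ∈ ctr S := by
    intro γ _ z hz
    refine hWZ _ fun v => ?_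
    obtain ⟨w, rfl⟩ := γ.surjective v
    rw [← map_mul, ← map_mul, show w * z = z * w from Subtype.ext ((mem_ctr.1 hz).2 w (hUn.1 w.2))]
  let K : Subgroup (F.autGroup U) :=
    { carrier := {γ | ∀ z : U, (z : Ω) ∈ ctr S → (γ : MulAut U) z = z}
      one_mem' := fun z _ => rfl
      mul_mem' := fun {a b} ha hb z hz => by
        show (a : MulAut U) ((b : MulAut U) z) = z
        rw [hb z hz, ha z hz]
      inv_mem' := fun {a} ha z hz => by
        show (a : MulAut U)⁻¹ z = z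
        conv_lhs => rw [← ha z hz]
        exact MulAut.inv_apply_self _ _ z }
  haveI : K.Normal := ⟨fun γ hγ b z hz => by
    show (b : MulAut U) ((γ : MulAut U) ((b : MulAut U)⁻¹ z)) = z
    rw [hγ _ (hinv _ ((F.autGroup U).inv_mem b.2) z hz), MulAut.apply_inv_self]⟩
  obtain ⟨-, R, hR⟩ := H93.IsFullyNormalized.isFullyAutomized hS hF hUn
  have hRK : (R : Subgroup (F.autGroup U)) ≤ K := by
    intro γ hγ z hz
    rw [hR, Subgroup.mem_subgroupOf] at hγ
    obtain ⟨g, hg, hge⟩ := H93.mem_autInducedBy.1 hγ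
    exact Subtype.ext (by rw [hge, (mem_ctr.1 hz).2 g hg, mul_inv_cancel_right])
  have hfr := Sylow.normalizer_sup_eq_top' R hRK
  have hmem : (⟨α, hα⟩ : F.autGroup U) ∈ Subgroup.normalizer (R : Set (F.autGroup U)) ⊔ K := by
    have := hfr.ge (Subgroup.mem_top (⟨α, hα⟩ : F.autGroup U))
    exact this
  obtain ⟨m, hm, k, hk, hmk⟩ := Subgroup.mem_sup_of_normal_right.1 hmem
  have hnorm : ∀ γ ∈ autInducedBy S U, (m : MulAut U) * γ * (m : MulAut U)⁻¹ ∈ autInducedBy S U := by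
    intro γ hγ
    let g : F.autGroup U := ⟨γ, H93.autInducedBy_le_autGroup F hUn.1 hγ⟩
    have hgR : g ∈ (R : Subgroup (F.autGroup U)) := by rw [hR, Subgroup.mem_subgroupOf]; exact hγ
    have h3 : m * g * m⁻¹ ∈ (R : Subgroup (F.autGroup U)) := (Subgroup.mem_normalizer_iff.1 hm g).1 hgR
    rw [hR, Subgroup.mem_subgroupOf] at h3
    exact h3
  obtain ⟨ψ, hψ, hψe⟩ := exists_ext_of_normalizes hS hF hUn m.2 hnorm
  have hUcard : Nat.card U = p * (p * Nat.card ↥(ctr S)) := by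
    rw [D.card_eq_mul hUn.1 fun h => hxA (h hx), hB, hc]
  obtain ⟨β, hβ, hb⟩ := zAct_of_big hS hF (n := p * (p * Nat.card ↥(ctr S))) (fun V hV hn => by
    obtain ⟨-, -, -, -, hVc⟩ := card_cases D hF huniq hAe hV
    exfalso
    have h0 : 0 < p * Nat.card ↥(ctr S) := Nat.mul_pos hp.pos Nat.card_pos
    rcases hVc with ⟨-, e⟩ | ⟨-, e⟩
    · rw [e] at hn
      exact hn.not_ge (Nat.le_mul_of_pos_left _ hp.pos)
    · exact absurd (e ▸ hn) (lt_irrefl _)) hψ (by
      rw [hN, hUcard]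
      exact lt_mul_of_one_lt_left (Nat.mul_pos hp.pos (Nat.mul_pos hp.pos Nat.card_pos)) hp.one_lt)
  refine ⟨β, hβ, fun z hz => ?_⟩
  show ((α z : U) : Ω) = _
  have hα' : α = (m : MulAut U) * (k : MulAut U) := (congrArg Subtype.val hmk).symm
  rw [hα', MulAut.mul_apply, hk z hz, ← hψe z]
  exact hb _ hz

/-- Maps on subgroups larger than the small essential subgroups act on the centre like automorphisms of `S`. -/
theorem zAct_of_card (D : Setup p S A) (hF : F.IsSaturated p)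
    (huniq : ∀ B : Subgroup Ω, B ≤ S → IsMulCommutative ↥B → (B.subgroupOf S).index = p → B = A)
    (hAe : ¬ F.IsEssential p A) {P : Subgroup Ω} {φ : P →* Ω} (hφ : φ ∈ F.Hom P)
    (hn : p * Nat.card ↥(ctr S) < Nat.card P) : ZAct F φ :=
  zAct_of_big D.isP hF (fun V hV hV' α hα => by
    obtain ⟨-, -, -, -, hVc⟩ := card_cases D hF huniq hAe hV
    rcases hVc with ⟨-, e⟩ | ⟨hB, -⟩
    · exact absurd (e ▸ hV') (lt_irrefl _)
    · exact zAct_nonabelian D hF huniq hAe hV hB hα) hφ hn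

/-- An automorphism of `S` inverting the central commutators and trivial on the centre modulo them. -/
def Inverts (F : FusionSystem S) (β : MulAut S) : Prop :=
  β ∈ F.autGroup S ∧ (∀ z : S, (z : Ω) ∈ z0 S → β z = z⁻¹) ∧
    ∀ z : S, (z : Ω) ∈ ctr S → ((β z * z⁻¹ : S) : Ω) ∈ z0 S

/-- Two such automorphisms agree on the centre. -/
theorem Inverts.eq (hS : IsPGroup p S) (hF : F.IsSaturated p) (hz0 : Nat.card ↥(z0 S) = p) {β β' : MulAut S}
    (h : Inverts F β) (h' : Inverts F β') {z : S} (hz : (z : Ω) ∈ ctr S) : β z = β' z := by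
  haveI := H93.finite_mulAut (S := S) (P := S) le_rfl
  let K : Subgroup (F.autGroup S) :=
    { carrier := {γ | ∀ z : S, (z : Ω) ∈ ctr S → (γ : MulAut S) z = z}
      one_mem' := fun z _ => rfl
      mul_mem' := fun {a b} ha hb z hz => by
        show (a : MulAut S) ((b : MulAut S) z) = z
        rw [hb z hz, ha z hz]
      inv_mem' := fun {a} ha z hz => by
        show (a : MulAut S)⁻¹ z = z
        conv_lhs => rw [← ha z hz]
        exact MulAut.inv_apply_self _ _ z }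
  haveI hKn : K.Normal := ⟨fun γ hγ b z hz => by
    show (b : MulAut S) ((γ : MulAut S) ((b : MulAut S)⁻¹ z)) = z
    rw [hγ _ (aut_mem_ctr _ hz), MulAut.apply_inv_self]⟩
  obtain ⟨-, R, hR⟩ := H93.IsFullyNormalized.isFullyAutomized hS hF (H93.isFullyNormalized_top F)
  have hRK : (R : Subgroup (F.autGroup S)) ≤ K := by
    intro γ hγ z hz
    rw [hR, Subgroup.mem_subgroupOf] at hγ
    obtain ⟨g, hg, hge⟩ := H93.mem_autInducedBy.1 hγ
    exact Subtype.ext (by rw [hge, (mem_ctr.1 hz).2 g hg, mul_inv_cancel_right])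
  have key : ∀ γ γ' : MulAut S, Inverts F γ → Inverts F γ' → ∀ z : S, (z : Ω) ∈ ctr S → γ (γ' z) = z := by
    intro γ γ' hγ hγ' z hz
    let u : F.autGroup S := ⟨γ, hγ.1⟩ * ⟨γ', hγ'.1⟩
    have hfix : ∀ v : S, (v : Ω) ∈ z0 S → (u : MulAut S) v = v := fun v hv => by
      show γ (γ' v) = v
      rw [hγ'.2.1 v hv, map_inv, hγ.2.1 v hv, inv_inv]
    have hstep : ∀ v : S, (v : Ω) ∈ ctr S → (((u : MulAut S) v * v⁻¹ : S) : Ω) ∈ z0 S := fun v hv => by
      show ((γ (γ' v) * v⁻¹ : S) : Ω) ∈ z0 S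
      have := (z0 S).mul_mem (hγ.2.2 _ (aut_mem_ctr γ' hv)) (hγ'.2.2 v hv)
      simpa [mul_assoc] using this
    have hup : u ^ p ∈ K := by
      intro v hv
      show ((u ^ p : F.autGroup S) : MulAut S) v = v
      have hpow : ∀ j, ((u : MulAut S) ^ j) v = ((u : MulAut S) v * v⁻¹) ^ j * v := by
        intro j
        induction j with
        | zero => simp
        | succ j ih =>
          rw [pow_succ', MulAut.mul_apply, ih, map_mul, map_pow, hfix _ (hstep v hv), pow_succ]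
          simp [mul_assoc]
      rw [Subgroup.coe_pow, hpow, show ((u : MulAut S) v * v⁻¹) ^ p = 1 from ?_, one_mul]
      have := pow_card_eq_one' (x := (⟨_, hstep v hv⟩ : ↥(z0 S)))
      rw [hz0] at this
      exact Subtype.ext (by simpa using congrArg Subtype.val this)
    have hu : u ∈ K := by
      have hK := Subgroup.index_dvd_of_le hRK
      have hcop : Nat.Coprime p K.index := (Fact.out : p.Prime).coprime_iff_not_dvd.2 fun hd =>
        R.not_dvd_index (hd.trans hK)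
      rw [← QuotientGroup.eq_one_iff, ← orderOf_eq_one_iff]
      refine Nat.eq_one_of_dvd_coprimes hcop (orderOf_dvd_of_pow_eq_one ?_) ?_
      · rw [← QuotientGroup.mk_pow, QuotientGroup.eq_one_iff]; exact hup
      · rw [Subgroup.index_eq_card]; exact orderOf_dvd_natCard _
    exact hu z hz
  have h1 := key β β h h z hz
  have h2 := key β β' h h' z hz
  exact β.injective (h1.trans h2.symm)

/-- An abelian essential subgroup has an automorphism moving the centre. -/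
theorem exists_moving (D : Setup p S A) (hF : F.IsSaturated p)
    (huniq : ∀ B : Subgroup Ω, B ≤ S → IsMulCommutative ↥B → (B.subgroupOf S).index = p → B = A)
    (hAe : ¬ F.IsEssential p A) {E : Subgroup Ω} (hE : F.IsEssential p E) (hB : E ⊓ A = ctr S) :
    ∃ g ∈ F.autGroup E, ∃ w : E, (w : Ω) ∈ ctr S ∧ ((g w : E) : Ω) ∉ ctr S := by
  by_contra hno
  push Not at hno
  obtain ⟨h2, hc, -, -, -⟩ := card_cases D hF huniq hAe hE
  haveI := H93.finite_of_le (S := S) (ctr_le (S := S))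
  obtain ⟨a, ha2, ha1⟩ : ∃ a ∈ ctr2 S, a ∉ ctr S := by
    refine SetLike.not_le_iff_exists.1 fun hle => ?_
    have hle' := Subgroup.card_le_of_le hle
    rw [hc] at hle'
    have h0 : 0 < Nat.card ↥(ctr S) := Nat.card_pos
    have := (Fact.out : p.Prime).two_le
    nlinarith
  have hcomm : ∀ y ∈ S, ∀ v ∈ ctr2 S, v * y * v⁻¹ * y⁻¹ ∈ ctr S := fun y hy v hv => by
    have := (mem_ctr2.1 hv).2 y hy
    rwa [commutatorElement_def] at this
  have hZE : ctr S ≤ E := hB.ge.trans inf_le_left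
  have hnorm : a ∈ Subgroup.normalizer (E : Set Ω) := by
    refine Subgroup.mem_normalizer_iff.2 fun y => ⟨fun hy => ?_, fun hy => ?_⟩
    · simpa using E.mul_mem (hZE (hcomm y (hE.1.1 hy) a ha2)) hy
    · have := E.mul_mem (hZE (hcomm _ (hE.1.1 hy) a⁻¹ ((ctr2 S).inv_mem ha2))) hy
      simpa [mul_assoc] using this
  refine ha1 (hB.le ⟨?_, h2 ha2⟩)
  refine mem_of_stab D.isP hE.1 (H93.IsEssential.isRadical D.isP hE) (W := ctr S) hno (D.le (h2 ha2)) hnorm
    (fun w hw _ => by rw [(mem_ctr.1 hw).2 a (D.le (h2 ha2)), mul_inv_cancel_right]) fun y hy => ?_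
  exact hcomm y (hE.1.1 hy) a ha2

/-- For an automorphism of an abelian essential subgroup moving the centre there is an inverting automorphism
of `S` fixing exactly the part of the centre which stays in it. -/
theorem exists_inverts (D : Setup p S A) (hF : F.IsSaturated p) (hp2 : p ≠ 2)
    (huniq : ∀ B : Subgroup Ω, B ≤ S → IsMulCommutative ↥B → (B.subgroupOf S).index = p → B = A)
    (hAe : ¬ F.IsEssential p A) {E : Subgroup Ω} (hE : F.IsEssential p E) (hB : E ⊓ A = ctr S)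
    {g : MulAut E} (hg : g ∈ F.autGroup E) {w : E} (hw : (w : Ω) ∈ ctr S) (hgw : ((g w : E) : Ω) ∉ ctr S) :
    ∃ β, Inverts F β ∧ (∀ z : E, ∀ hz : (z : Ω) ∈ ctr S,
      (β ⟨z, hz.1⟩ = ⟨z, hz.1⟩ ↔ ((g⁻¹ z : E) : Ω) ∈ ctr S)) := by
  have hS := D.isP
  have hp := (Fact.out : p.Prime)
  obtain ⟨h2, hc, ⟨x, hx, hxA⟩, hN, hEc⟩ := card_cases D hF huniq hAe hE
  obtain ⟨-, hEn, -⟩ := id hE
  have hES := hEn.1
  haveI := H93.finite_of_le (S := S) hES
  haveI := H93.finite_of_le (S := S) (ctr_le (S := S))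
  haveI := H93.finite_mulAut (S := S) hES
  have hZE : ctr S ≤ E := hB.ge.trans inf_le_left
  have hZ0 : Nat.card ↥(z0 S) = p := D.card_ctr_inf_commutator (hES hx) hxA h2 hc
  have hZA : ∀ {e : E}, (e : Ω) ∉ ctr S → (e : Ω) ∉ A := fun {e} he h => he (hB.le ⟨e.2, h⟩)
  have hEc' : Nat.card E = p * Nat.card ↥(ctr S) := by rw [D.card_eq_mul hES fun h => hxA (h hx), hB]
  have hsplit : ∀ {y : E}, (y : Ω) ∉ A → ∀ e : E, ∃ b : E, (b : Ω) ∈ ctr S ∧ ∃ i : ℤ, e = b * y ^ i := by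
    intro y hy e
    obtain ⟨b, hb, i, hbi⟩ := D.exists_eq_mul (hES y.2) hy (hES e.2)
    have hbE : b ∈ E := by
      rw [eq_mul_inv_of_mul_eq hbi.symm]
      exact E.mul_mem e.2 (E.inv_mem (E.zpow_mem y.2 i))
    exact ⟨⟨b, hbE⟩, hB.le ⟨hbE, hb⟩, i, Subtype.ext (by simpa using hbi)⟩
  have hEcomm : ∀ u v : E, u * v = v * u := by
    intro u v
    obtain ⟨b, hb, i, rfl⟩ := hsplit (y := ⟨x, hx⟩) hxA u
    obtain ⟨b', hb', j, rfl⟩ := hsplit (y := ⟨x, hx⟩) hxA v
    have c1 : ∀ c : E, (c : Ω) ∈ ctr S → ∀ e : E, Commute c e := fun c hc e =>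
      Subtype.ext ((mem_ctr.1 hc).2 e (hES e.2)).symm
    exact (Commute.mul_left ((c1 b hb b').mul_right (c1 b hb _))
      ((c1 b' hb' _).symm.mul_right (Commute.zpow_zpow_self _ i j))).eq
  -- the element `a` of the second centre
  obtain ⟨a, ha2, ha1⟩ : ∃ a ∈ ctr2 S, a ∉ ctr S := by
    refine SetLike.not_le_iff_exists.1 fun hle => ?_
    have hle' := Subgroup.card_le_of_le hle
    rw [hc] at hle'
    have h0 : 0 < Nat.card ↥(ctr S) := Nat.card_pos
    have := hp.two_le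
    nlinarith
  have haA := h2 ha2
  have hcom : ∀ y ∈ S, ⁅a, y⁆ ∈ z0 S := fun y hy =>
    ⟨(mem_ctr2.1 ha2).2 y hy, by
      rw [Subgroup.map_subtype_commutator]
      exact Subgroup.commutator_mem_commutator (D.le haA) hy⟩
  have haN : a ∈ normalizerIn S E := by
    refine ⟨D.le haA, Subgroup.mem_normalizer_iff.2 fun y => ⟨fun hy => ?_, fun hy => ?_⟩⟩
    · have := E.mul_mem (hZE (hcom y (hES hy)).1) hy
      rwa [commutatorElement_def, inv_mul_cancel_right] at this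
    · have h3 := (mem_ctr2.1 ((ctr2 S).inv_mem ha2)).2 (a * y * a⁻¹) (hES hy)
      have := E.mul_mem (hZE h3) hy
      simpa [commutatorElement_def, mul_assoc] using this
  let X : MulAut E := H93.conjAut S E ⟨a, haN⟩
  have hXF : X ∈ F.autGroup E :=
    H93.autInducedBy_le_autGroup F hES (H93.mem_autInducedBy.2 ⟨a, haN.1, fun x => rfl⟩)
  have hXfix : ∀ z : E, (z : Ω) ∈ ctr S → X z = z := fun z hz =>
    Subtype.ext (by rw [H93.conjAut_apply, (mem_ctr.1 hz).2 a (D.le haA), mul_inv_cancel_right])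
  have hXcom : ∀ y : E, X y = ⟨⁅a, (y : Ω)⁆, hZE (hcom y (hES y.2)).1⟩ * y := fun y =>
    Subtype.ext (show a * (y : Ω) * a⁻¹ = ⁅a, (y : Ω)⁆ * y by rw [commutatorElement_def, inv_mul_cancel_right])
  -- the inverse also moves the centre
  obtain ⟨v, hv, hgv⟩ : ∃ v : E, (v : Ω) ∈ ctr S ∧ ((g⁻¹ v : E) : Ω) ∉ ctr S := by
    by_contra hno
    push Not at hno
    let f : ↥(ctr S) → ↥(ctr S) := fun z => ⟨_, hno ⟨z, hZE z.2⟩ z.2⟩
    have hf : Function.Injective f := fun z z' h => by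
      have h' : g⁻¹ (⟨z, hZE z.2⟩ : E) = g⁻¹ ⟨z', hZE z'.2⟩ := Subtype.ext (congrArg Subtype.val h :)
      exact Subtype.ext (congrArg Subtype.val (g⁻¹.injective h') :)
    obtain ⟨z, hz⟩ := Finite.surjective_of_injective hf ⟨w, hw⟩
    have h' : g⁻¹ (⟨z, hZE z.2⟩ : E) = w := Subtype.ext (congrArg Subtype.val hz :)
    apply hgw
    rw [← h', MulAut.apply_inv_self]
    exact z.2
  -- the commutator with `x` is moved out of the centre
  have hne : ∀ {u : Ω}, u ∈ E → u ∉ A → (⁅a, u⁆ : Ω) ≠ 1 := fun {u} hu huA h => ha1 <|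
    (D.mem_ctr_iff (hES hu) huA haA).2 (commutatorElement_eq_one_iff_mul_comm.1 h).symm
  have hmeet : ∀ {y : E}, (y : Ω) ∉ A → ∀ u : E, (u : Ω) = ⁅a, (y : Ω)⁆ →
      ((g u : E) : Ω) ∉ ctr S ∧ ((g⁻¹ u : E) : Ω) ∉ ctr S := by
    intro y hy u hu
    constructor
    · intro h
      exact ha1 (ctr_meet D hF hE hB ((F.autGroup E).inv_mem hg) hv (hZA hgv) y.2 hy haA
        (hcom y (hES y.2)).1 ⟨(hcom y (hES y.2)).1, g u, h, by rw [← hu, MulAut.inv_apply_self]⟩)
    · intro h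
      exact ha1 (ctr_meet D hF hE hB hg hw (hZA hgw) y.2 hy haA
        (hcom y (hES y.2)).1 ⟨(hcom y (hES y.2)).1, g⁻¹ u, h, by rw [← hu, MulAut.apply_inv_self]⟩)
  let z1 : E := ⟨⁅a, x⁆, hZE (hcom x (hES hx)).1⟩
  let y : E := g z1
  have hyA : (y : Ω) ∉ A := hZA (hmeet (y := ⟨x, hx⟩) hxA z1 rfl).1
  let zz : E := ⟨⁅a, (y : Ω)⁆, hZE (hcom y (hES y.2)).1⟩
  have hzz : (zz : Ω) ∈ z0 S := hcom y (hES y.2)
  have hzzne : zz ≠ 1 := fun h => hne y.2 hyA (congrArg Subtype.val h)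
  have hord : ∀ u : E, (u : Ω) ∈ z0 S → u ^ p = 1 := fun u hu => by
    have := pow_card_eq_one' (x := (⟨(u : Ω), hu⟩ : ↥(z0 S)))
    rw [hZ0] at this
    exact Subtype.ext (by simpa using congrArg Subtype.val this)
  have hyp : y ^ p = 1 := by rw [← map_pow, hord z1 (hcom x (hES hx)), map_one]
  have hXy : X y = zz * y := hXcom y
  have hXzz : X zz = zz := hXfix zz hzz.1
  -- the conjugate transvection
  let Y0 : MulAut E := g * X * g⁻¹
  have hY0 : ∀ u : E, ((g⁻¹ u : E) : Ω) ∈ ctr S → Y0 u = u := fun u hu => by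
    show g (X (g⁻¹ u)) = u
    rw [hXfix _ hu, MulAut.apply_inv_self]
  have hY0y : Y0 y = y := hY0 y (by rw [MulAut.inv_apply_self]; exact (hcom x (hES hx)).1)
  obtain ⟨b, hb, i, hbi⟩ := hsplit (y := ⟨x, hx⟩) hxA (g⁻¹ zz)
  have hY0zz : Y0 zz = y ^ i * zz := by
    show g (X (g⁻¹ zz)) = y ^ i * zz
    have hXx : X ⟨x, hx⟩ = z1 * ⟨x, hx⟩ := hXcom ⟨x, hx⟩
    rw [hbi, map_mul, hXfix b hb, map_zpow, hXx, (show Commute z1 ⟨x, hx⟩ from hEcomm _ _).mul_zpow,
      ← mul_assoc, hEcomm b (z1 ^ i), mul_assoc, map_mul, map_zpow, ← hbi, MulAut.apply_inv_self]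
  have hi : ¬ (p : ℤ) ∣ i := by
    intro hd
    refine (hmeet (y := y) hyA zz rfl).2 ?_
    rw [hbi]
    refine (ctr S).mul_mem hb (hB.le ⟨SetLike.coe_mem _, ?_⟩)
    rw [SubgroupClass.coe_zpow]
    exact (D.pow_mem_iff (hES hx) hxA D.normalA i).2 hd
  obtain ⟨r, q, hrq⟩ : IsCoprime i (p : ℤ) := ((Nat.prime_iff_prime_int.1 hp).coprime_iff_not_dvd.2 hi).symm
  let Y : MulAut E := Y0 ^ (-r)
  have hYfix : ∀ u : E, ((g⁻¹ u : E) : Ω) ∈ ctr S → Y u = u := by
    intro u hu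
    have hpow : ∀ j : ℤ, (Y0 ^ j) u = u := by
      intro j
      induction j using Int.induction_on with
      | zero => simp
      | succ j ih => rw [zpow_add_one, MulAut.mul_apply, hY0 u hu, ih]
      | pred j ih =>
        rw [zpow_sub_one, MulAut.mul_apply]
        conv_lhs => arg 2; arg 2; rw [← hY0 u hu]
        rw [MulAut.inv_apply_self, ih]
    exact hpow _
  have hYy : Y y = y := hYfix y (by rw [MulAut.inv_apply_self]; exact (hcom x (hES hx)).1)
  have hYzz : Y zz = y⁻¹ * zz := by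
    have hpow : ∀ j : ℤ, (Y0 ^ j) zz = y ^ (i * j) * zz := by
      have hfix : ∀ j : ℤ, (Y0 ^ j) y = y := by
        intro j
        induction j using Int.induction_on with
        | zero => simp
        | succ j ih => rw [zpow_add_one, MulAut.mul_apply, hY0y, ih]
        | pred j ih =>
          rw [zpow_sub_one, MulAut.mul_apply]
          conv_lhs => arg 2; arg 2; rw [← hY0y]
          rw [MulAut.inv_apply_self, ih]
      intro j
      induction j using Int.induction_on with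
      | zero => simp
      | succ j ih =>
        rw [zpow_add_one, MulAut.mul_apply, hY0zz, map_mul, map_zpow, hfix, ih, ← mul_assoc, ← zpow_add,
          show i + i * (j : ℤ) = i * ((j : ℤ) + 1) by ring]
      | pred j ih =>
        have e : Y0⁻¹ zz = (y ^ i)⁻¹ * zz := by
          apply Y0.injective
          rw [MulAut.apply_inv_self, map_mul, map_inv, map_zpow, hY0y, hY0zz, inv_mul_cancel_left]
        rw [zpow_sub_one, MulAut.mul_apply, e, map_mul, map_inv, map_zpow, hfix, ih, ← mul_assoc,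
          ← zpow_neg, ← zpow_add, show -i + i * (-(j : ℤ)) = i * (-(j : ℤ) - 1) by ring]
    show (Y0 ^ (-r)) zz = _
    rw [hpow]
    congr 1
    rw [show i * (-r) = (p : ℤ) * q - 1 by linarith [hrq], zpow_sub, zpow_mul, zpow_natCast, hyp, one_zpow,
      zpow_one, one_mul]
  let wv : MulAut E := X * Y * X
  have hwy : wv y = zz := by
    show X (Y (X y)) = zz
    rw [hXy, map_mul, hYzz, hYy, hEcomm y⁻¹ zz, mul_assoc, inv_mul_cancel, mul_one, hXzz]
  have hwz : wv zz = y⁻¹ := by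
    show X (Y (X zz)) = y⁻¹
    rw [hXzz, hYzz, map_mul, map_inv, hXy, hXzz, mul_inv_rev, mul_assoc, inv_mul_cancel, mul_one]
  let t : MulAut E := wv * wv
  have htF : t ∈ F.autGroup E := by
    have hY0F : Y0 ∈ F.autGroup E := (F.autGroup E).mul_mem ((F.autGroup E).mul_mem hg hXF) ((F.autGroup E).inv_mem hg)
    have hwF : wv ∈ F.autGroup E :=
      (F.autGroup E).mul_mem ((F.autGroup E).mul_mem hXF ((F.autGroup E).zpow_mem hY0F _)) hXF
    exact (F.autGroup E).mul_mem hwF hwF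
  have hty : t y = y⁻¹ := by show wv (wv y) = y⁻¹; rw [hwy, hwz]
  have htz : t zz = zz⁻¹ := by show wv (wv zz) = zz⁻¹; rw [hwz, map_inv, hwy]
  have htd : ∀ d : E, (d : Ω) ∈ ctr S → ((g⁻¹ d : E) : Ω) ∈ ctr S → t d = d := by
    intro d hd hd'
    have : wv d = d := by
      show X (Y (X d)) = d
      rw [hXfix d hd, hYfix d hd', hXfix d hd]
    show wv (wv d) = d
    rw [this, this]
  -- the centre is the product of the fixed part and the commutators
  have hz0gen : ∀ u : E, (u : Ω) ∈ z0 S → ∃ j : ℤ, u = zz ^ j := by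
    intro u hu
    obtain ⟨j, hj⟩ := Subgroup.mem_zpowers_iff.1 (mem_zpowers_of_prime_card (g' := (⟨(u : Ω), hu⟩ : ↥(z0 S)))
      (g := ⟨zz, hzz⟩) hZ0 fun h => hzzne (Subtype.ext (congrArg Subtype.val h :)))
    exact ⟨j, Subtype.ext (by simpa using (congrArg Subtype.val hj).symm)⟩
  have hdec : ∀ z : E, (z : Ω) ∈ ctr S → ∃ d : E, (d : Ω) ∈ ctr S ∧ ((g⁻¹ d : E) : Ω) ∈ ctr S ∧
      ∃ u : E, (u : Ω) ∈ z0 S ∧ z = d * u := by
    let gZ : Subgroup Ω := ((ctr S).subgroupOf E).map (E.subtype.comp g.toMonoidHom)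
    have hgZE : gZ ≤ E := by rintro _ ⟨u, -, rfl⟩; exact (g u).2
    haveI := H93.finite_of_le (S := S) ((inf_le_left : gZ ⊓ A ≤ gZ).trans (hgZE.trans hES))
    have hgZ : ∀ d : ↥(gZ ⊓ A), (d : Ω) ∈ ctr S ∧ ((g⁻¹ ⟨d, hgZE d.2.1⟩ : E) : Ω) ∈ ctr S := by
      intro d
      refine ⟨hB.le ⟨hgZE d.2.1, d.2.2⟩, ?_⟩
      obtain ⟨u, hu, hue⟩ := d.2.1
      have e : (⟨d, hgZE d.2.1⟩ : E) = g u := Subtype.ext hue.symm
      rw [e, MulAut.inv_apply_self]
      exact Subgroup.mem_subgroupOf.1 hu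
    have hcard : Nat.card ↥(ctr S) = p * Nat.card ↥(gZ ⊓ A) := by
      rw [← D.card_eq_mul (hgZE.trans hES) fun h => hZA hgw (h ⟨w, hw, rfl⟩),
        ← Nat.card_congr (Subgroup.equivMapOfInjective _ (E.subtype.comp g.toMonoidHom)
          (E.subtype_injective.comp g.injective)).toEquiv]
      exact (Nat.card_congr (Subgroup.subgroupOfEquivOfLe hZE).toEquiv).symm
    let f : ↥(gZ ⊓ A) × ↥(z0 S) → ↥(ctr S) := fun r =>
      ⟨(r.1 : Ω) * r.2, (ctr S).mul_mem (hgZ r.1).1 r.2.2.1⟩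
    have hinj : Function.Injective f := by
      rintro ⟨d, u⟩ ⟨d', u'⟩ h
      have h' : (d : Ω) * u = (d' : Ω) * u' := congrArg Subtype.val h
      have e : ((d'⁻¹ * d : ↥(gZ ⊓ A)) : Ω) = ((u' * u⁻¹ : ↥(z0 S)) : Ω) := by
        simp only [Subgroup.coe_mul, Subgroup.coe_inv]
        rw [eq_mul_inv_iff_mul_eq, mul_assoc, h', inv_mul_cancel_left]
      have hu : u' * u⁻¹ = 1 := by
        by_contra hne'
        let ue : E := ⟨((u' * u⁻¹ : ↥(z0 S)) : Ω), hZE (u' * u⁻¹).2.1⟩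
        obtain ⟨j, hj⟩ := Subgroup.mem_zpowers_iff.1 (mem_zpowers_of_prime_card (g' := (⟨zz, hzz⟩ : ↥(z0 S)))
          (g := u' * u⁻¹) hZ0 hne')
        refine (hmeet (y := y) hyA zz rfl).2 ?_
        have hzz' : zz = ue ^ j := Subtype.ext (by simpa [ue] using (congrArg Subtype.val hj).symm)
        rw [hzz', map_zpow, SubgroupClass.coe_zpow]
        refine (ctr S).zpow_mem ?_ j
        have := (hgZ (d'⁻¹ * d)).2
        have he2 : ue = ⟨((d'⁻¹ * d : ↥(gZ ⊓ A)) : Ω), hgZE (d'⁻¹ * d).2.1⟩ := Subtype.ext e.symm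
        rw [he2]
        exact this
      have hu' : u' = u := mul_inv_eq_one.1 hu
      subst hu'
      have : d = d' := Subtype.ext (mul_right_cancel h')
      rw [this]
    have hsurj : Function.Surjective f := (hinj.bijective_of_nat_card_le (by
      rw [Nat.card_prod, hZ0, hcard, mul_comm])).2
    intro z hz
    obtain ⟨⟨d, u⟩, hdu⟩ := hsurj ⟨z, hz⟩
    exact ⟨⟨d, hgZE d.2.1⟩, (hgZ d).1, (hgZ d).2, ⟨u, hZE u.2.1⟩, u.2,
      Subtype.ext (congrArg Subtype.val hdu :).symm⟩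
  have htu : ∀ u : E, (u : Ω) ∈ z0 S → t u = u⁻¹ := fun u hu => by
    obtain ⟨j, rfl⟩ := hz0gen u hu
    rw [map_zpow, htz, inv_zpow]
  have htZ : ∀ z : E, (z : Ω) ∈ ctr S → ((t z : E) : Ω) ∈ ctr S := by
    intro z hz
    obtain ⟨d, hd, hd', u, hu, rfl⟩ := hdec z hz
    rw [map_mul, htd d hd hd', htu u hu]
    exact (ctr S).mul_mem hd ((ctr S).inv_mem hu.1)
  have htZ' : ∀ z : E, (z : Ω) ∈ ctr S → ((t⁻¹ z : E) : Ω) ∈ ctr S := by
    intro z hz
    obtain ⟨d, hd, hd', u, hu, rfl⟩ := hdec z hz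
    have : t (d * u⁻¹) = d * u := by rw [map_mul, map_inv, htd d hd hd', htu u hu, inv_inv]
    rw [← this, MulAut.inv_apply_self]
    exact (ctr S).mul_mem hd ((ctr S).inv_mem hu.1)
  have hnorm : ∀ γ ∈ autInducedBy S E, t * γ * t⁻¹ ∈ autInducedBy S E := by
    intro γ hγ
    obtain ⟨h, hh, hhe⟩ := H93.mem_autInducedBy.1 hγ
    have hγfix : ∀ z : E, (z : Ω) ∈ ctr S → γ z = z := fun z hz =>
      Subtype.ext (by rw [hhe, (mem_ctr.1 hz).2 h hh, mul_inv_cancel_right])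
    let u : E := γ y * y⁻¹
    have hu : (u : Ω) ∈ z0 S := by
      have hS' : (u : Ω) ∈ (commutator S).map S.subtype := by
        show ((γ y : E) : Ω) * (y : Ω)⁻¹ ∈ _
        rw [hhe, Subgroup.map_subtype_commutator]
        exact Subgroup.commutator_mem_commutator hh (hES y.2)
      refine ⟨hB.le ⟨u.2, ?_⟩, hS'⟩
      have : (commutator S).map S.subtype ≤ A := by
        rw [D.commutator_eq (hES hx) hxA]; exact Subgroup.map_subtype_le _
      exact this hS'
    have hγy : γ y = u * y := (inv_mul_cancel_right (γ y) y).symm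
    suffices heq : t * γ * t⁻¹ = γ by rw [heq]; exact hγ
    refine MulEquiv.ext fun e => ?_
    obtain ⟨b, hb, j, rfl⟩ := hsplit hyA e
    show t (γ (t⁻¹ (b * y ^ j))) = γ (b * y ^ j)
    have hty' : t⁻¹ y = y⁻¹ := by
      conv_lhs => rw [← inv_inv y, ← hty, ← map_inv]
      exact MulAut.inv_apply_self _ _ _
    rw [map_mul, map_zpow, hty', map_mul, hγfix _ (htZ' b hb), map_zpow, map_inv, hγy, map_mul,
      MulAut.apply_inv_self, map_zpow, map_inv, map_mul, htu u hu, hty, map_mul, hγfix b hb, map_zpow, hγy,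
      mul_inv_rev, inv_inv, inv_inv, hEcomm y u]
  obtain ⟨ψ, hψ, hψe⟩ := exists_ext_of_normalizes hS hF hEn htF hnorm
  obtain ⟨β, hβ, hb'⟩ := zAct_of_card D hF huniq hAe hψ (by
    rw [hN, hEc']
    exact lt_mul_of_one_lt_left (Nat.mul_pos hp.pos Nat.card_pos) hp.one_lt)
  have hβt : ∀ (z : E) (hz : (z : Ω) ∈ ctr S), ((β ⟨z, hz.1⟩ : S) : Ω) = ((t z : E) : Ω) := fun z hz => by
    rw [← hψe z]; exact (hb' (Subgroup.inclusion (H93.le_normalizerIn hES) z) hz).symm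
  refine ⟨β, ⟨hβ, fun z hz => ?_, fun z hz => ?_⟩, fun z hz => ?_⟩
  · apply Subtype.ext
    refine (hβt ⟨z, hZE hz.1⟩ hz.1).trans ?_
    rw [htu _ hz]
    rfl
  · obtain ⟨d, hd, hd', u, hu, hdu⟩ := hdec ⟨z, hZE hz⟩ hz
    have h1 : ((β z : S) : Ω) = (d : Ω) * (u : Ω)⁻¹ := by
      refine (hβt ⟨z, hZE hz⟩ hz).trans ?_
      rw [hdu, map_mul, htd d hd hd', htu u hu]; rfl
    have h2 : (z : Ω) = (d : Ω) * u := congrArg Subtype.val hdu
    rw [Subgroup.coe_mul, Subgroup.coe_inv, h1, h2]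
    have hc2 : (d : Ω) * ((u : Ω)⁻¹ * (u : Ω)⁻¹) = (u : Ω)⁻¹ * (u : Ω)⁻¹ * d :=
      congrArg Subtype.val (hEcomm d (u⁻¹ * u⁻¹))
    rw [show (d : Ω) * (u : Ω)⁻¹ * ((d : Ω) * u)⁻¹ = (d : Ω) * ((u : Ω)⁻¹ * (u : Ω)⁻¹) * (d : Ω)⁻¹ by group,
      hc2, mul_inv_cancel_right]
    exact (z0 S).mul_mem ((z0 S).inv_mem hu) ((z0 S).inv_mem hu)
  · obtain ⟨d, hd, hd', u, hu, rfl⟩ := hdec z hz
    have e : t (d * u) = d * u⁻¹ := by rw [map_mul, htd d hd hd', htu u hu]
    constructor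
    · intro h
      have h1 : t (d * u) = d * u := Subtype.ext ((hβt _ hz).symm.trans (congrArg Subtype.val h :))
      rw [e] at h1
      have h2 : u⁻¹ = u := mul_left_cancel h1
      have hu1 : u = 1 := by
        have h3 : u ^ 2 = 1 := by rw [pow_two]; nth_rw 1 [← h2]; exact inv_mul_cancel u
        have hd2 : orderOf u ∣ 2 := orderOf_dvd_of_pow_eq_one h3
        have hdp : orderOf u ∣ p := orderOf_dvd_of_pow_eq_one (hord u hu)
        exact orderOf_eq_one_iff.1 (Nat.eq_one_of_dvd_coprimes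
          ((Nat.coprime_primes hp Nat.prime_two).2 hp2) hdp hd2)
      rwa [hu1, mul_one]
    · intro h
      have hu' : u = 1 := by
        by_contra hne'
        obtain ⟨j, hj⟩ := hz0gen u hu
        refine (hmeet (y := y) hyA zz rfl).2 ?_
        obtain ⟨k, hk⟩ := Subgroup.mem_zpowers_iff.1 (mem_zpowers_of_prime_card (g' := (⟨zz, hzz⟩ : ↥(z0 S)))
          (g := ⟨(u : Ω), hu⟩) hZ0 fun hh => hne' (Subtype.ext (congrArg Subtype.val hh :)))
        have hzz' : zz = u ^ k := Subtype.ext (by simpa using (congrArg Subtype.val hk).symm)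
        rw [hzz', map_zpow, SubgroupClass.coe_zpow]
        refine (ctr S).zpow_mem ?_ k
        have h5 := (ctr S).mul_mem ((ctr S).inv_mem hd') h
        rwa [← Subgroup.coe_inv, ← Subgroup.coe_mul, ← map_inv, ← map_mul, inv_mul_cancel_left] at h5
      subst hu'
      exact Subtype.ext ((hβt _ hz).trans (congrArg Subtype.val (show t (d * 1) = d * 1 by rw [e, inv_one])))

/-- The main conclusion: an essential subgroup over the centre exists and the centre has order `p`. -/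
theorem core_free_structure (D : Setup p S A) (hF : F.IsSaturated p) (hp2 : p ≠ 2)
    (huniq : ∀ B : Subgroup Ω, B ≤ S → IsMulCommutative ↥B → (B.subgroupOf S).index = p → B = A)
    (hcore : F.core = ⊥) (hAe : ¬ F.IsEssential p A) :
    (∃ E, F.IsEssential p E ∧ E ⊓ A = ctr S) ∧ ctr S = z0 S := by
  have hS := D.isP
  have hbot : ∀ Q : Subgroup Ω, F.IsNormal Q → Q = ⊥ := fun Q hQ =>
    le_bot_iff.1 (hcore ▸ le_sSup (show Q ∈ {R : Subgroup Ω | F.IsNormal R} from hQ))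
  have hS1 : Nontrivial S := by
    by_contra h
    rw [not_nontrivial_iff_subsingleton] at h
    exact D.nonab ⟨⟨fun a b => Subsingleton.elim _ _⟩⟩
  have hZne : ctr S ≠ ⊥ := by
    haveI := hS.center_nontrivial
    obtain ⟨z, hz, hz1⟩ := Subgroup.exists_ne_one_of_nontrivial (Subgroup.center S)
    intro h
    have hm := mem_center_iff_ctr.1 hz
    rw [h, Subgroup.mem_bot] at hm
    exact hz1 (Subtype.ext hm)
  obtain ⟨E, hE, hEB⟩ : ∃ E, F.IsEssential p E ∧ E ⊓ A = ctr S := by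
    by_contra hno
    push Not at hno
    refine hZne (hbot _ (H93.isNormal_of_essential hS hF fun U hU => ?_))
    rcases hU with rfl | hU
    · exact ⟨ctr_le, fun α _ x hx => aut_mem_ctr α hx⟩
    · obtain ⟨-, -, -, -, hcases⟩ := card_cases D hF huniq hAe hU
      obtain ⟨hB, -⟩ := hcases.resolve_left fun h => hno U hU h.1
      refine ⟨ctr_le_ctr2.trans (hB.ge.trans inf_le_left), fun α hα x hx => ?_⟩
      obtain ⟨β, hβ, hb⟩ := zAct_nonabelian D hF huniq hAe hU hB hα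
      rw [show ((α x : U) : Ω) = ((β ⟨x, hx.1⟩ : S) : Ω) from hb x hx]
      exact aut_mem_ctr β hx
  refine ⟨⟨E, hE, hEB⟩, ?_⟩
  obtain ⟨g, hg, w, hw, hgw⟩ := exists_moving D hF huniq hAe hE hEB
  obtain ⟨β₀, hβ₀, hfix₀⟩ := exists_inverts D hF hp2 huniq hAe hE hEB hg hw hgw
  obtain ⟨h2, hc, ⟨x, hx, hxA⟩, -, -⟩ := card_cases D hF huniq hAe hE
  have hZ0 : Nat.card ↥(z0 S) = p := D.card_ctr_inf_commutator (hE.1.1 hx) hxA h2 hc
  let D₀ : Subgroup Ω :=
    { carrier := {z | ∃ hz : z ∈ ctr S, β₀ ⟨z, hz.1⟩ = ⟨z, hz.1⟩}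
      one_mem' := ⟨one_mem _, map_one β₀⟩
      mul_mem' := fun {u v} ⟨hu, hu'⟩ ⟨hv, hv'⟩ => ⟨(ctr S).mul_mem hu hv, by
        show β₀ (⟨u, hu.1⟩ * ⟨v, hv.1⟩) = ⟨u, hu.1⟩ * ⟨v, hv.1⟩
        rw [map_mul, hu', hv']⟩
      inv_mem' := fun {u} ⟨hu, hu'⟩ => ⟨(ctr S).inv_mem hu, by
        show β₀ (⟨u, hu.1⟩⁻¹) = ⟨u, hu.1⟩⁻¹
        rw [map_inv, hu']⟩ }
  -- invariance under automorphisms of `S`
  have hinv : ∀ γ ∈ F.autGroup S, ∀ z : S, (z : Ω) ∈ D₀ → ((γ z : S) : Ω) ∈ D₀ := by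
    intro γ hγ z hz
    obtain ⟨hzc, hzf⟩ := hz
    have hzf' : β₀ z = z := hzf
    refine ⟨aut_mem_ctr γ hzc, ?_⟩
    have hcj : Inverts F (γ * β₀ * γ⁻¹) := by
      refine ⟨(F.autGroup S).mul_mem ((F.autGroup S).mul_mem hγ hβ₀.1) ((F.autGroup S).inv_mem hγ),
        fun v hv => ?_, fun v hv => ?_⟩
      · show γ (β₀ (γ⁻¹ v)) = v⁻¹
        rw [hβ₀.2.1 _ (aut_mem_z0 _ hv), map_inv, MulAut.apply_inv_self]
      · have := aut_mem_z0 γ (hβ₀.2.2 _ (aut_mem_ctr γ⁻¹ hv))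
        show (((γ (β₀ (γ⁻¹ v))) * v⁻¹ : S) : Ω) ∈ z0 S
        rwa [map_mul, map_inv, MulAut.apply_inv_self] at this
    show β₀ (γ z) = γ z
    rw [Inverts.eq hS hF hZ0 hβ₀ hcj (aut_mem_ctr γ hzc)]
    show γ (β₀ (γ⁻¹ (γ z))) = γ z
    rw [MulAut.inv_apply_self, hzf']
  have hD0 : F.IsNormal D₀ := H93.isNormal_of_essential hS hF fun U hU => by
    rcases hU with rfl | hU
    · exact ⟨fun z hz => hz.1.1, fun α hα z hz => hinv α hα z hz⟩
    obtain ⟨-, -, -, -, hcases⟩ := card_cases D hF huniq hAe hU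
    rcases hcases with ⟨hB, -⟩ | ⟨hB, -⟩
    · have hZU : ctr S ≤ U := hB.ge.trans inf_le_left
      refine ⟨fun z hz => hZU hz.1, fun α hα d hd => ?_⟩
      -- elements of `D₀` stay central
      have hall : ∀ g' ∈ F.autGroup U, ((g'⁻¹ d : U) : Ω) ∈ ctr S := by
        intro g' hg'
        by_cases hmv : ∃ w' : U, (w' : Ω) ∈ ctr S ∧ ((g' w' : U) : Ω) ∉ ctr S
        · obtain ⟨w', hw', hgw'⟩ := hmv
          obtain ⟨β', hβ', hfix'⟩ := exists_inverts D hF hp2 huniq hAe hU hB hg' hw' hgw'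
          refine (hfix' d hd.1).1 ?_
          rw [← Inverts.eq hS hF hZ0 hβ₀ hβ' (z := ⟨d, hd.1.1⟩) hd.1]
          exact hd.2
        · push Not at hmv
          haveI := H93.finite_of_le (S := S) (ctr_le (S := S))
          let f : ↥(ctr S) → ↥(ctr S) := fun z => ⟨_, hmv ⟨z, hZU z.2⟩ z.2⟩
          have hf : Function.Injective f := fun z z' h => by
            have h' : g' (⟨z, hZU z.2⟩ : U) = g' ⟨z', hZU z'.2⟩ := Subtype.ext (congrArg Subtype.val h :)
            exact Subtype.ext (congrArg Subtype.val (g'.injective h') :)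
          obtain ⟨z, hz⟩ := Finite.surjective_of_injective hf ⟨d, hd.1⟩
          have h' : g' (⟨z, hZU z.2⟩ : U) = d := Subtype.ext (congrArg Subtype.val hz :)
          rw [← h', MulAut.inv_apply_self]
          exact z.2
      have hαd : ∀ g' ∈ F.autGroup U, ((g'⁻¹ (α d) : U) : Ω) ∈ ctr S := fun g' hg' => by
        have := hall (α⁻¹ * g') ((F.autGroup U).mul_mem ((F.autGroup U).inv_mem hα) hg')
        rwa [mul_inv_rev, inv_inv, MulAut.mul_apply] at this
      obtain ⟨g', hg', w', hw', hgw'⟩ := exists_moving D hF huniq hAe hU hB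
      obtain ⟨β', hβ', hfix'⟩ := exists_inverts D hF hp2 huniq hAe hU hB hg' hw' hgw'
      have hc' : ((α d : U) : Ω) ∈ ctr S := by simpa using hαd 1 (Subgroup.one_mem _)
      refine ⟨hc', ?_⟩
      rw [Inverts.eq hS hF hZ0 hβ₀ hβ' (z := ⟨_, hc'.1⟩) hc']
      exact (hfix' (α d) hc').2 (hαd g' hg')
    · refine ⟨fun z hz => ctr_le_ctr2.trans (hB.ge.trans inf_le_left) hz.1, fun α hα d hd => ?_⟩
      obtain ⟨β, hβ, hb⟩ := zAct_nonabelian D hF huniq hAe hU hB hα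
      rw [show ((α d : U) : Ω) = ((β ⟨d, hd.1.1⟩ : S) : Ω) from hb d hd.1]
      exact hinv β hβ _ hd
  have hD0bot := hbot _ hD0
  -- `z ↦ β₀ z / z` embeds the centre into the commutators
  haveI := H93.finite_of_le (S := S) (ctr_le (S := S))
  haveI : Finite ↥(ctr S ⊓ (commutator S).map S.subtype) := H93.finite_of_le (S := S) (inf_le_left.trans ctr_le)
  haveI : Finite ↥(z0 S) := H93.finite_of_le (S := S) (inf_le_left.trans ctr_le)
  refine (Subgroup.eq_of_le_of_card_ge (inf_le_left : z0 S ≤ ctr S) ?_).symm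
  refine Nat.card_le_card_of_injective (fun z : ↥(ctr S) =>
    (⟨((β₀ ⟨z, z.2.1⟩ * (⟨z, z.2.1⟩ : S)⁻¹ : S) : Ω), hβ₀.2.2 _ z.2⟩ : ↥(z0 S))) fun z z' h => ?_
  have h' : β₀ ⟨z, z.2.1⟩ * (⟨z, z.2.1⟩ : S)⁻¹ = β₀ ⟨z', z'.2.1⟩ * (⟨z', z'.2.1⟩ : S)⁻¹ :=
    Subtype.ext (congrArg Subtype.val h :)
  have hmem : ((z * z'⁻¹ : ↥(ctr S)) : Ω) ∈ D₀ := by
    refine ⟨(z * z'⁻¹).2, ?_⟩
    show β₀ (⟨z, z.2.1⟩ * (⟨z', z'.2.1⟩ : S)⁻¹) = ⟨z, z.2.1⟩ * (⟨z', z'.2.1⟩ : S)⁻¹
    have hcm : ∀ u : S, (⟨z, z.2.1⟩ : S) * u = u * ⟨z, z.2.1⟩ := fun u =>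
      Subtype.ext ((mem_ctr.1 z.2).2 u u.2).symm
    have hcm' : ∀ u : S, (⟨z', z'.2.1⟩ : S) * u = u * ⟨z', z'.2.1⟩ := fun u =>
      Subtype.ext ((mem_ctr.1 z'.2).2 u u.2).symm
    generalize (⟨(z : Ω), z.2.1⟩ : S) = u at h' hcm ⊢
    generalize (⟨(z' : Ω), z'.2.1⟩ : S) = u' at h' hcm' ⊢
    rw [map_mul, map_inv]
    calc β₀ u * (β₀ u')⁻¹ = β₀ u * u⁻¹ * u * (β₀ u')⁻¹ := by rw [inv_mul_cancel_right]
      _ = β₀ u' * u'⁻¹ * u * (β₀ u')⁻¹ := by rw [h']
      _ = β₀ u' * (u * u'⁻¹) * (β₀ u')⁻¹ := by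
        rw [mul_assoc (β₀ u'), show u'⁻¹ * u = u * u'⁻¹ from (hcm u'⁻¹).symm]
      _ = u * u'⁻¹ := by
        rw [← mul_assoc (β₀ u'), ← hcm (β₀ u'), mul_assoc u, show β₀ u' * u'⁻¹ = u'⁻¹ * β₀ u' from ?_,
          ← mul_assoc, mul_inv_cancel_right]
        rw [eq_inv_mul_iff_mul_eq, ← mul_assoc, hcm' (β₀ u'), mul_inv_cancel_right]
  rw [hD0bot, Subgroup.mem_bot] at hmem
  exact mul_inv_eq_one.1 (Subtype.ext hmem)

end Cfsg.Agent.H80.UA
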