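import Cfsg.Agent.H80.UA.Base
import Cfsg.Agent.H93.Normal

/-!
Essential subgroups over a `p`-group with an abelian subgroup of index `p`.
-/
set_option autoImplicit false

namespace Cfsg.Agent.H80.UA

open Cfsg Cfsg.FusionSystem
open scoped commutatorElement

variable {Ω : Type*} [Group Ω] {S A P : Subgroup Ω} {p : ℕ} [Finite S] [Fact p.Prime] {F : FusionSystem S}

/-- An essential subgroup is a proper subgroup of `S`. -/
theorem lt_of_essential (hS : IsPGroup p S) (hF : F.IsSaturated p) (hP : F.IsEssential p P) : P < S := by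
  refine lt_of_le_of_ne hP.1.1 ?_
  rintro rfl
  obtain ⟨-, hn, hnor, E, hdvd, -⟩ := hP
  obtain ⟨-, R, hR⟩ := H93.IsFullyNormalized.isFullyAutomized hS hF hn
  haveI := H93.finite_mulAut (S := P) (P := P) le_rfl
  rw [← Subgroup.index_eq_card, Subgroup.index] at hdvd
  refine R.not_dvd_index ?_
  rw [hR, ← H93.inn_eq_autInducedBy]
  exact hdvd

/-- An element of `S` stabilizing a series `1 ≤ W ≤ P` with `W` invariant under the automizer lies in `P`
when `P` is centric and radical. -/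
theorem mem_of_stab (hS : IsPGroup p S) (hc : F.IsCentric P) (hr : F.IsRadical p P) {W : Subgroup Ω}
    (hW : ∀ α ∈ F.autGroup P, ∀ y : P, (y : Ω) ∈ W → ((α y : P) : Ω) ∈ W)
    {g : Ω} (hgS : g ∈ S) (hgN : g ∈ Subgroup.normalizer (P : Set Ω))
    (h1 : ∀ w ∈ W, w ∈ P → g * w * g⁻¹ = w) (h2 : ∀ y ∈ P, g * y * g⁻¹ * y⁻¹ ∈ W) : g ∈ P := by
  have hP := hc.1
  haveI := H93.finite_of_le hP
  haveI := H93.finite_mulAut hP
  let K : Subgroup (F.autGroup P) :=
    { carrier := {γ | ∀ y : P, ((y : Ω) ∈ W → (γ : MulAut P) y = y) ∧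
          (((γ : MulAut P) y * y⁻¹ : P) : Ω) ∈ W}
      one_mem' := fun y => ⟨fun _ => rfl, by simp⟩
      mul_mem' := fun {a b} ha hb y => by
        refine ⟨fun hy => ?_, ?_⟩
        · show (a : MulAut P) ((b : MulAut P) y) = y
          rw [(hb y).1 hy, (ha y).1 hy]
        · show (((a : MulAut P) ((b : MulAut P) y) * y⁻¹ : P) : Ω) ∈ W
          have := W.mul_mem (ha ((b : MulAut P) y)).2 (hb y).2
          simpa [mul_assoc] using this
      inv_mem' := fun {a} ha y => by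
        obtain ⟨z, rfl⟩ := (a : MulAut P).surjective y
        refine ⟨fun hy => ?_, ?_⟩
        · show (a : MulAut P)⁻¹ ((a : MulAut P) z) = (a : MulAut P) z
          have hz : (z : Ω) ∈ W := by
            have := hW _ ((F.autGroup P).inv_mem a.2) _ hy
            simpa using this
          rw [MulAut.inv_apply_self, (ha z).1 hz]
        · show (((a : MulAut P)⁻¹ ((a : MulAut P) z) * ((a : MulAut P) z)⁻¹ : P) : Ω) ∈ W
          have := W.inv_mem (ha z).2
          simpa [mul_assoc] using this }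
  have hK : K.Normal := by
    refine ⟨fun γ hγ β y => ⟨fun hy => ?_, ?_⟩⟩
    · show (β : MulAut P) ((γ : MulAut P) ((β : MulAut P)⁻¹ y)) = y
      rw [(hγ _).1 (hW _ ((F.autGroup P).inv_mem β.2) _ hy), MulAut.apply_inv_self]
    · show (((β : MulAut P) ((γ : MulAut P) ((β : MulAut P)⁻¹ y)) * y⁻¹ : P) : Ω) ∈ W
      have := hW _ β.2 _ (hγ ((β : MulAut P)⁻¹ y)).2
      simpa using this
  have hKp : IsPGroup p K := by
    intro γ
    obtain ⟨k, hk⟩ := H93.exists_pow_eq_one_of_chain (hS.to_le hP) (γ := ((γ : F.autGroup P) : MulAut P)) 0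
      (fun _ => W) (fun i hi => absurd hi i.not_lt_zero) (fun a ha => (γ.2 a).1 ha)
      (fun i hi => absurd hi i.not_lt_zero) (fun x => (γ.2 x).2)
    exact ⟨k, Subtype.ext (Subtype.ext (by simpa using hk))⟩
  have hgS' : g ∈ normalizerIn S P := ⟨hgS, hgN⟩
  let a : F.autGroup P := ⟨H93.conjAut S P ⟨g, hgS'⟩,
    H93.autInducedBy_le_autGroup F hP (H93.mem_autInducedBy.2 ⟨g, hgS, fun x => rfl⟩)⟩
  have ha : a ∈ K := fun y => ⟨fun hy => Subtype.ext (h1 _ hy y.2), h2 _ y.2⟩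
  have h : (a : MulAut P) ∈ Inn P := hr.2.le ⟨a, H19.le_pCore hK hKp ha, rfl⟩
  rw [H93.inn_eq_autInducedBy, H93.mem_autInducedBy] at h
  obtain ⟨u, hu, hue⟩ := h
  have hcm : u⁻¹ * g ∈ centralizerIn S P := by
    refine H93.mem_centralizerIn.2 ⟨S.mul_mem (S.inv_mem (hP hu)) hgS, fun x hx => ?_⟩
    have e : g * x * g⁻¹ = u * x * u⁻¹ := hue ⟨x, hx⟩
    calc u⁻¹ * g * x * (u⁻¹ * g)⁻¹ = u⁻¹ * (g * x * g⁻¹) * u := by simp [mul_assoc]
      _ = x := by rw [e]; simp [mul_assoc]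
  simpa using P.mul_mem hu (hc.2 P (H93.isConj_refl F hP) hcm)

/-- In the abelian case the intersection of the centre with a moved copy of it misses the commutators. -/
theorem ctr_meet (D : Setup p S A) (hF : F.IsSaturated p) (hP : F.IsEssential p P) (hB : P ⊓ A = ctr S)
    {α : MulAut P} (hα : α ∈ F.autGroup P) {w : P} (hw : (w : Ω) ∈ ctr S) (hwA : ((α w : P) : Ω) ∉ A)
    {x : Ω} (hx : x ∈ P) (hxA : x ∉ A) {a : Ω} (ha : a ∈ A) (hd : ⁅a, x⁆ ∈ ctr S)
    (hd' : ⁅a, x⁆ ∈ ctr S ∧ ∃ v : P, (v : Ω) ∈ ctr S ∧ ((α v : P) : Ω) = ⁅a, x⁆) : a ∈ ctr S := by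
  have hS := D.isP
  have hPS := hP.1.1
  haveI := H93.finite_of_le hPS
  haveI := H93.finite_mulAut hPS
  obtain ⟨hc, hn, -⟩ := hP
  let Z : Subgroup Ω := ctr S
  let W : Subgroup Ω := ctr S ⊓ (((ctr S).subgroupOf P).map (P.subtype.comp α.toMonoidHom))
  have hWα : ∀ {y : Ω}, y ∈ W ↔ y ∈ ctr S ∧ ∃ v : P, (v : Ω) ∈ ctr S ∧ ((α v : P) : Ω) = y := by
    intro y
    simp only [W, Subgroup.mem_inf, Subgroup.mem_map, Subgroup.mem_subgroupOf, MonoidHom.comp_apply,
      MulEquiv.coe_toMonoidHom, Subgroup.coe_subtype]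
  -- the stabilizer of `1 ≤ W ≤ P`
  let K : Subgroup (F.autGroup P) :=
    { carrier := {γ | (∀ y : P, (y : Ω) ∈ W → (γ : MulAut P) y = y) ∧
          ∀ y : P, (((γ : MulAut P) y * y⁻¹ : P) : Ω) ∈ W}
      one_mem' := ⟨fun y _ => rfl, fun y => by simp⟩
      mul_mem' := fun {a b} ha hb => by
        refine ⟨fun y hy => ?_, fun y => ?_⟩
        · show (a : MulAut P) ((b : MulAut P) y) = y
          rw [hb.1 y hy, ha.1 y hy]
        · show (((a : MulAut P) ((b : MulAut P) y) * y⁻¹ : P) : Ω) ∈ W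
          have := W.mul_mem (ha.2 ((b : MulAut P) y)) (hb.2 y)
          simpa [mul_assoc] using this
      inv_mem' := fun {a} ha => by
        have hfix : ∀ y : P, (y : Ω) ∈ W → (a : MulAut P)⁻¹ y = y := fun y hy => by
          conv_lhs => rw [← ha.1 y hy]
          exact MulAut.inv_apply_self _ _ y
        refine ⟨hfix, fun y => ?_⟩
        obtain ⟨z, rfl⟩ := (a : MulAut P).surjective y
        show (((a : MulAut P)⁻¹ ((a : MulAut P) z) * ((a : MulAut P) z)⁻¹ : P) : Ω) ∈ W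
        have := W.inv_mem (ha.2 z)
        simpa [mul_assoc] using this }
  have hKp : IsPGroup p K := by
    intro γ
    obtain ⟨k, hk⟩ := H93.exists_pow_eq_one_of_chain (hS.to_le hPS) (γ := ((γ : F.autGroup P) : MulAut P)) 0
      (fun _ => W) (fun i hi => absurd hi i.not_lt_zero) (fun a ha => γ.2.1 a ha)
      (fun i hi => absurd hi i.not_lt_zero) (fun x => γ.2.2 x)
    exact ⟨k, Subtype.ext (Subtype.ext (by simpa using hk))⟩
  obtain ⟨-, R, hR⟩ := H93.IsFullyNormalized.isFullyAutomized hS hF hn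
  let R' : Sylow p (F.autGroup P) := MulAut.conj (⟨α, hα⟩ : F.autGroup P) • R
  have hfixR : ∀ γ ∈ R', ∀ v : P, (v : Ω) ∈ ctr S → (γ : MulAut P) (α v) = α v := by
    intro γ hγ v hv
    obtain ⟨q, hq, rfl⟩ := hγ
    rw [SetLike.mem_coe, hR, Subgroup.mem_subgroupOf] at hq
    obtain ⟨g, hg, hge⟩ := H93.mem_autInducedBy.1 hq
    have hqv : (q : MulAut P) v = v := Subtype.ext (by
      rw [hge, (mem_ctr.1 hv).2 g hg, mul_inv_cancel_right])
    show α ((q : MulAut P) (α⁻¹ (α v))) = α v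
    rw [MulAut.inv_apply_self, hqv]
  have hnorm : (R' : Subgroup (F.autGroup P)) ≤ Subgroup.normalizer (K : Set (F.autGroup P)) := by
    have key : ∀ r ∈ (R' : Subgroup (F.autGroup P)), ∀ k ∈ K, r * k * r⁻¹ ∈ K := by
      intro r hr k hk
      have hrW : ∀ y : P, (y : Ω) ∈ W → (r : MulAut P) y = y := fun y hy => by
        obtain ⟨-, v, hv, hve⟩ := hWα.1 hy
        rw [show y = α v from Subtype.ext hve.symm]
        exact hfixR r hr v hv
      refine ⟨fun y hy => ?_, fun y => ?_⟩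
      · show (r : MulAut P) ((k : MulAut P) ((r : MulAut P)⁻¹ y)) = y
        have e : (r : MulAut P)⁻¹ y = y := by
          conv_lhs => rw [← hrW y hy]
          exact MulAut.inv_apply_self _ _ y
        rw [e, hk.1 y hy, hrW y hy]
      · show (((r : MulAut P) ((k : MulAut P) ((r : MulAut P)⁻¹ y)) * y⁻¹ : P) : Ω) ∈ W
        have h' := hk.2 ((r : MulAut P)⁻¹ y)
        have h'' : (((r : MulAut P) ((k : MulAut P) ((r : MulAut P)⁻¹ y) * ((r : MulAut P)⁻¹ y)⁻¹) : P) : Ω) ∈ W := by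
          rw [hrW _ h']; exact h'
        simpa using h''
    intro r hr
    refine Subgroup.mem_normalizer_iff.2 fun k => ⟨key r hr k, fun h => ?_⟩
    have := key r⁻¹ (R'.toSubgroup.inv_mem hr) _ h
    simpa [mul_assoc] using this
  have hKR : K ≤ (R' : Subgroup (F.autGroup P)) := by
    have := hKp.to_sup_of_normal_left' R'.isPGroup' hnorm
    exact le_sup_left.trans (R'.is_maximal' this le_sup_right).le
  -- the element
  have haN : a ∈ normalizerIn S P := by
    refine ⟨D.le ha, Subgroup.mem_normalizer_iff.2 ?_⟩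
    have key : ∀ u ∈ P, a * u * a⁻¹ * u⁻¹ ∈ W := by
      intro u hu
      obtain ⟨b, hb, i, rfl⟩ := D.exists_eq_mul (hPS hx) hxA (hPS hu)
      have hci : a * x ^ i * a⁻¹ = ⁅a, x⁆ ^ i * x ^ i := by
        have hco : Commute ⁅a, x⁆ x := ((mem_ctr.1 hd).2 x (hPS hx)).symm
        rw [← conj_zpow, ← hco.mul_zpow, commutatorElement_def, inv_mul_cancel_right]
      have e : a * (b * x ^ i) * a⁻¹ * (b * x ^ i)⁻¹ = ⁅a, x⁆ ^ i := by
        have hz : ⁅a, x⁆ ^ i * b = b * ⁅a, x⁆ ^ i := ((mem_ctr.1 ((ctr S).zpow_mem hd i)).2 b (D.le hb)).symm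
        calc a * (b * x ^ i) * a⁻¹ * (b * x ^ i)⁻¹ = (a * b * a⁻¹) * (a * x ^ i * a⁻¹) * (b * x ^ i)⁻¹ := by group
          _ = b * (⁅a, x⁆ ^ i * x ^ i) * (b * x ^ i)⁻¹ := by
            rw [hci, D.commute_of_mem ha hb, mul_inv_cancel_right]
          _ = b * ⁅a, x⁆ ^ i * b⁻¹ := by group
          _ = _ := by rw [← hz, mul_inv_cancel_right]
      rw [e]
      exact W.zpow_mem (hWα.2 hd') i
    have hWP : W ≤ P := fun y hy => by
      obtain ⟨-, v, -, hve⟩ := hWα.1 hy
      rw [← hve]; exact (α v).2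
    intro u
    refine ⟨fun hu => by simpa using P.mul_mem (hWP (key u hu)) hu, fun hu => ?_⟩
    obtain ⟨hm, -⟩ := hWα.1 (key _ hu)
    have h3 : u = (a * (a * u * a⁻¹) * a⁻¹ * (a * u * a⁻¹)⁻¹)⁻¹ * (a * u * a⁻¹) := by
      have h4 := (mem_ctr.1 hm).2 a (D.le ha)
      generalize hv : a * (a * u * a⁻¹) * a⁻¹ * (a * u * a⁻¹)⁻¹ = c at h4
      have h5 : a * (a * u * a⁻¹) * a⁻¹ = c * (a * u * a⁻¹) := by rw [← hv]; group
      have h6 : a * u * a⁻¹ = a * (c⁻¹ * (a * u * a⁻¹)) * a⁻¹ := by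
        have h7 : a * c⁻¹ = c⁻¹ * a := (Commute.inv_right (show Commute a c from h4)).eq
        calc a * u * a⁻¹ = c⁻¹ * (a * (a * u * a⁻¹) * a⁻¹) := by rw [h5, inv_mul_cancel_left]
          _ = c⁻¹ * a * (a * u * a⁻¹) * a⁻¹ := by simp only [mul_assoc]
          _ = _ := by rw [← h7]; simp only [mul_assoc]
      exact mul_left_cancel (mul_right_cancel h6)
    rw [h3]
    exact P.mul_mem (P.inv_mem (hWP (key _ hu))) hu
  have hmem : H93.conjAut S P ⟨a, haN⟩ ∈ F.autGroup P :=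
    H93.autInducedBy_le_autGroup F hPS (H93.mem_autInducedBy.2 ⟨a, D.le ha, fun x => rfl⟩)
  have hBfix : ∀ y : P, (y : Ω) ∈ ctr S → H93.conjAut S P ⟨a, haN⟩ y = y := fun y hy => Subtype.ext (by
    rw [H93.conjAut_apply, (mem_ctr.1 hy).2 a (D.le ha), mul_inv_cancel_right])
  have haK : (⟨_, hmem⟩ : F.autGroup P) ∈ K := by
    refine ⟨fun y hy => hBfix y (hWα.1 hy).1, fun y => ?_⟩
    obtain ⟨b, hb, i, hbi⟩ := D.exists_eq_mul (hPS hx) hxA (hPS y.2)
    have hbP : b ∈ P := by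
      rw [eq_mul_inv_of_mul_eq hbi.symm]
      exact P.mul_mem y.2 (P.inv_mem (P.zpow_mem hx i))
    have hbz : b ∈ ctr S := hB.le ⟨hbP, hb⟩
    have hy' : y = (⟨b, hbP⟩ : P) * (⟨x, hx⟩ : P) ^ i := Subtype.ext (by simpa using hbi)
    show ((H93.conjAut S P ⟨a, haN⟩ y * y⁻¹ : P) : Ω) ∈ W
    have hx1 : H93.conjAut S P ⟨a, haN⟩ ⟨x, hx⟩ = ⟨⁅a, x⁆, (inf_le_left : P ⊓ A ≤ P) (hB.ge hd)⟩ * ⟨x, hx⟩ :=
      Subtype.ext (show a * x * a⁻¹ = ⁅a, x⁆ * x by rw [commutatorElement_def, inv_mul_cancel_right])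
    rw [hy', map_mul, hBfix ⟨b, hbP⟩ hbz, map_zpow, hx1]
    have hco : Commute (⟨⁅a, x⁆, (inf_le_left : P ⊓ A ≤ P) (hB.ge hd)⟩ : P) ⟨x, hx⟩ :=
      Subtype.ext ((mem_ctr.1 hd).2 x (hPS hx)).symm
    rw [hco.mul_zpow]
    show b * (⁅a, x⁆ ^ i * x ^ i) * (b * x ^ i)⁻¹ ∈ W
    rw [show b * (⁅a, x⁆ ^ i * x ^ i) * (b * x ^ i)⁻¹ = b * ⁅a, x⁆ ^ i * b⁻¹ by group,
      (mem_ctr.1 ((ctr S).zpow_mem hd i)).2 b (D.le hb), mul_inv_cancel_right]
    exact W.zpow_mem (hWα.2 hd') i
  -- it fixes the centre and its image, hence `P`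
  have hfix := hfixR _ (hKR haK) w hw
  have hy : a * ((α w : P) : Ω) * a⁻¹ = (α w : P) := congrArg Subtype.val hfix
  refine (D.mem_ctr_iff (hPS (α w).2) hwA ha).2 ?_
  conv_rhs => rw [← inv_mul_cancel_right (a * ((α w : P) : Ω)) a, hy]

/-- The shape of an essential subgroup other than `A`. -/
theorem essential_shape (D : Setup p S A) (hF : F.IsSaturated p)
    (huniq : ∀ B : Subgroup Ω, B ≤ S → IsMulCommutative ↥B → (B.subgroupOf S).index = p → B = A)
    (hP : F.IsEssential p P) (hPA : P ≠ A) :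
    ctr2 S ≤ A ∧ Nat.card ↥(ctr2 S) = p * Nat.card ↥(ctr S) ∧
      (∃ x ∈ P, x ∉ A ∧ (P = ctr S ⊔ Subgroup.zpowers x ∨ P = ctr2 S ⊔ Subgroup.zpowers x)) ∧
      (P ⊓ A = ctr S ∨ P ⊓ A = ctr2 S) ∧
      Nat.card ↥(normalizerIn S P) = p * Nat.card P := by
  have hS := D.isP
  have hp := (Fact.out : p.Prime)
  haveI := D.finiteA
  obtain ⟨hc, hn, -⟩ := id hP
  have hr := H93.IsEssential.isRadical hS hP
  have hPS := hc.1
  haveI := H93.finite_of_le hPS
  have hlt := lt_of_essential hS hF hP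
  have hcent := hc.2 P (H93.isConj_refl F hPS)
  have hnle : ¬ P ≤ A := fun h => hPA (le_antisymm h fun a ha =>
    hcent (H93.mem_centralizerIn.2 ⟨D.le ha, fun x hx => by
      rw [D.commute_of_mem ha (h hx), mul_inv_cancel_right]⟩))
  obtain ⟨x, hx, hxA⟩ := SetLike.not_le_iff_exists.1 hnle
  have hxS := hPS hx
  have hZP : ctr S ≤ P := fun z hz => hcent (H93.mem_centralizerIn.2
    ⟨hz.1, fun s hs => by rw [← (mem_ctr.1 hz).2 s (hPS hs), mul_inv_cancel_right]⟩)
  set B : Subgroup Ω := P ⊓ A with hBdef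
  have hBA : B ≤ A := inf_le_right
  have hZB : ctr S ≤ B := le_inf hZP D.ctr_le_A
  have hsplit : ∀ y ∈ P, ∃ b ∈ B, ∃ i : ℤ, y = b * x ^ i := fun y hy => by
    obtain ⟨b, hb, i, rfl⟩ := D.exists_eq_mul hxS hxA (hPS hy)
    refine ⟨b, ⟨?_, hb⟩, i, rfl⟩
    simpa using P.mul_mem hy (P.inv_mem (P.zpow_mem hx i))
  have hPgen : P = B ⊔ Subgroup.zpowers x := by
    refine le_antisymm (fun y hy => ?_) (sup_le inf_le_left (Subgroup.zpowers_le.2 hx))
    obtain ⟨b, hb, i, rfl⟩ := hsplit y hy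
    exact Subgroup.mul_mem_sup hb (Subgroup.zpow_mem _ (Subgroup.mem_zpowers x) i)
  have hNle : P ≤ normalizerIn S P := H93.le_normalizerIn hPS
  obtain ⟨g, hgN, hgP⟩ := Set.exists_of_ssubset (H93.lt_normalizerIn hS hlt)
  -- a normalizing element inside `A`
  obtain ⟨a, haA, i, hga⟩ := D.exists_eq_mul hxS hxA hgN.1
  have haN : a ∈ normalizerIn S P := by
    have := (normalizerIn S P).mul_mem hgN ((normalizerIn S P).inv_mem (hNle (P.zpow_mem hx i)))
    rwa [hga, mul_inv_cancel_right] at this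
  have haP : a ∉ P := fun h => hgP (hga ▸ P.mul_mem h (P.zpow_mem hx i))
  have hcommA : ∀ y ∈ S, a * y * a⁻¹ * y⁻¹ ∈ A := fun y hy => by
    have := A.mul_mem haA (D.conj_mem hy (A.inv_mem haA))
    simpa [mul_assoc] using this
  have hB2 : ∀ y ∈ P, a * y * a⁻¹ * y⁻¹ ∈ B := fun y hy =>
    ⟨P.mul_mem ((Subgroup.mem_normalizer_iff.1 haN.2 y).1 hy) (P.inv_mem hy), hcommA y (hPS hy)⟩
  have hmove : ∃ α ∈ F.autGroup P, ∃ b : P, (b : Ω) ∈ B ∧ ((α b : P) : Ω) ∉ B := by
    by_contra hno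
    push Not at hno
    exact haP (mem_of_stab hS hc hr (W := B) hno haN.1 haN.2
      (fun w hw _ => by rw [D.commute_of_mem haA (hBA hw), mul_inv_cancel_right]) hB2)
  obtain ⟨α, hα, b₀, hb₀, hαb₀⟩ := hmove
  have hyA : ((α b₀ : P) : Ω) ∉ A := fun h => hαb₀ ⟨(α b₀).2, h⟩
  -- the image of `B` is abelian and meets `A` inside the centre
  let B' : Subgroup Ω := (B.subgroupOf P).map (P.subtype.comp α.toMonoidHom)
  have hB'P : B' ≤ P := by rintro _ ⟨v, -, rfl⟩; exact (α v).2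
  have hB'card : Nat.card B' = Nat.card B := by
    rw [← Nat.card_congr (Subgroup.equivMapOfInjective (B.subgroupOf P) (P.subtype.comp α.toMonoidHom)
      (P.subtype_injective.comp α.injective)).toEquiv]
    exact Nat.card_congr (Subgroup.subgroupOfEquivOfLe inf_le_left).toEquiv
  have hB'Z : B' ⊓ A ≤ ctr S := by
    rintro _ ⟨⟨v, hv, rfl⟩, hvA⟩
    refine (D.mem_ctr_iff (hPS (α b₀).2) hyA hvA).2 ?_
    have e : b₀ * v = v * b₀ := Subtype.ext (D.commute_of_mem hb₀.2 (Subgroup.mem_subgroupOf.1 hv).2)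
    show ((α b₀ : P) : Ω) * ((α v : P) : Ω) = ((α v : P) : Ω) * ((α b₀ : P) : Ω)
    rw [← Subgroup.coe_mul, ← map_mul, e, map_mul, Subgroup.coe_mul]
  have hBcard : Nat.card B ≤ p * Nat.card ↥(ctr S) := by
    haveI := H93.finite_of_le (S := S) (ctr_le (S := S))
    rw [← hB'card, D.card_eq_mul (hB'P.trans hPS) fun h => hyA (h ⟨b₀, hb₀, rfl⟩)]
    exact Nat.mul_le_mul_left _ (Subgroup.card_le_of_le hB'Z)
  haveI hfinN : Finite (normalizerIn S P) := H93.finite_of_le inf_le_left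
  have hNcard : Nat.card ↥(normalizerIn S P) = p * Nat.card ↥(normalizerIn S P ⊓ A) :=
    D.card_eq_mul inf_le_left fun h => hxA (h (hNle hx))
  have hPcard : Nat.card P = p * Nat.card B := D.card_eq_mul hPS hnle
  have hZfin : Finite (ctr S) := H93.finite_of_le (S := S) ctr_le
  haveI hBfin : Finite B := H93.finite_of_le (S := S) (hBA.trans D.le)
  have hkey : ∀ u : A, (u : Ω) ∈ normalizerIn S P → ⁅(u : Ω), x⁆ ∈ B := fun u hu => by
    rw [commutatorElement_def]
    refine ⟨P.mul_mem ((Subgroup.mem_normalizer_iff.1 hu.2 x).1 hx) (P.inv_mem hx), ?_⟩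
    have := A.mul_mem u.2 (D.conj_mem hxS (A.inv_mem u.2))
    simpa [mul_assoc] using this
  have hnorm_of : ∀ u ∈ A, ⁅u, x⁆ ∈ ctr S → u ∈ normalizerIn S P := by
    intro u hu hux
    have key : ∀ v ∈ A, ⁅v, x⁆ ∈ ctr S → ∀ y ∈ P, v * y * v⁻¹ ∈ P := by
      intro v hv hvx y hy
      have hv2 : v ∈ ctr2 S := (D.mem_ctr2_iff hxS hxA hv).2 hvx
      have := P.mul_mem (hZP ((mem_ctr2.1 hv2).2 y (hPS hy))) hy
      rwa [commutatorElement_def, inv_mul_cancel_right] at this
    refine ⟨D.le hu, Subgroup.mem_normalizer_iff.2 fun y => ⟨key u hu hux y, fun hy => ?_⟩⟩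
    have hu' : ((D.delta hxS ⟨u, hu⟩⁻¹ : A) : Ω) ∈ ctr S := by
      rw [map_inv, Subgroup.coe_inv]
      exact (ctr S).inv_mem hux
    have := key _ (A.inv_mem hu) hu' _ hy
    simpa [mul_assoc] using this
  have hlt' : Nat.card P < Nat.card ↥(normalizerIn S P) :=
    lt_of_le_of_ne (Subgroup.card_le_of_le hNle) fun e => hgP
      ((Subgroup.eq_of_le_of_card_ge hNle e.ge).ge hgN)
  by_cases hab : B = ctr S
  · -- abelian case
    have hαA : ((α b₀ : P) : Ω) ∉ A := hyA
    have hinj : ∀ u : A, (u : Ω) ∈ normalizerIn S P → ⁅(u : Ω), x⁆ ∈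
        ((ctr S).subgroupOf P).map (P.subtype.comp α.toMonoidHom) → (u : Ω) ∈ ctr S := by
      intro u hu hv
      have hd : ⁅(u : Ω), x⁆ ∈ ctr S := hab ▸ hkey u hu
      obtain ⟨v, hv1, hv2⟩ := hv
      exact ctr_meet D hF hP hab hα (hab ▸ hb₀) hαA hx hxA u.2 hd ⟨hd, v, hv1, hv2⟩
    set Dz : Subgroup Ω := B' ⊓ A with hDz
    have hDcard : Nat.card B = p * Nat.card Dz := by
      rw [← hB'card]
      exact D.card_eq_mul (hB'P.trans hPS) fun h => hyA (h ⟨b₀, hb₀, rfl⟩)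
    haveI : Finite Dz := H93.finite_of_le (S := S) (hB'Z.trans ctr_le)
    -- `N ∩ A` modulo the centre embeds into the centre modulo `Dz`
    have hNA : Nat.card ↥(normalizerIn S P ⊓ A) ≤ p * Nat.card B := by
      let T : Subgroup A := (normalizerIn S P).subgroupOf A
      let f : T →* A := (D.delta hxS).comp T.subtype
      have hker : f.ker = ((ctr S).subgroupOf A).subgroupOf T := by
        ext t
        rw [MonoidHom.mem_ker, Subgroup.mem_subgroupOf, Subgroup.mem_subgroupOf]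
        exact D.delta_eq_one hxS hxA _
      have hcT : Nat.card T = Nat.card ↥(normalizerIn S P ⊓ A) :=
        Nat.card_congr
          ⟨fun t => ⟨((t : A) : Ω), t.2, (t : A).2⟩, fun t => ⟨⟨t.1, t.2.2⟩, t.2.1⟩,
            fun t => rfl, fun t => rfl⟩
      have hk : Nat.card f.ker ≤ Nat.card B := by
        rw [hker]
        refine Nat.card_le_card_of_injective (fun t => (⟨((t.1 : A) : Ω), hab.ge t.2⟩ : B)) fun s t h => ?_
        exact Subtype.ext (Subtype.ext (Subtype.ext (congrArg Subtype.val h :)))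
      have hr' : Nat.card f.range * Nat.card Dz ≤ p * Nat.card Dz := by
        rw [← hDcard, ← Nat.card_prod]
        refine Nat.card_le_card_of_injective (fun r : f.range × Dz => (⟨((r.1 : A) : Ω) * (r.2 : Ω), ?_⟩ : B))
          fun r r' h => ?_
        · obtain ⟨t, ht⟩ := r.1.2
          refine B.mul_mem ?_ ⟨hB'P r.2.2.1, r.2.2.2⟩
          rw [← ht]; exact hkey t t.2
        · obtain ⟨t, ht⟩ := r.1.2
          obtain ⟨t', ht'⟩ := r'.1.2
          have h' : ((r.1 : A) : Ω) * (r.2 : Ω) = ((r'.1 : A) : Ω) * (r'.2 : Ω) := congrArg Subtype.val h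
          have e : (((r'.1 : A) : Ω))⁻¹ * ((r.1 : A) : Ω) = (r'.2 : Ω) * (r.2 : Ω)⁻¹ := by
            rw [eq_mul_inv_iff_mul_eq, mul_assoc, h', inv_mul_cancel_left]
          have hD : ⁅(((t'⁻¹ * t : T) : A) : Ω), x⁆ ∈ Dz := by
            rw [← Setup.coe_delta D hxS]
            show ((f (t'⁻¹ * t) : A) : Ω) ∈ Dz
            rw [map_mul, map_inv, ht, ht', Subgroup.coe_mul, Subgroup.coe_inv, e]
            exact Dz.mul_mem r'.2.2 (Dz.inv_mem r.2.2)
          have h1 := hinj ((t'⁻¹ * t : T) : A) (t'⁻¹ * t).2 (Subgroup.map_mono (Subgroup.comap_mono hab.le) hD.1)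
          have h2 : f (t'⁻¹ * t) = 1 := (D.delta_eq_one hxS hxA _).2 h1
          rw [map_mul, map_inv, ht, ht', inv_mul_eq_one] at h2
          have h3 : r.1 = r'.1 := Subtype.ext h2.symm
          refine Prod.ext h3 (Subtype.ext (mul_left_cancel (a := ((r.1 : A) : Ω)) ?_))
          rw [h', h3]
      have hr'' : Nat.card f.range ≤ p := Nat.le_of_mul_le_mul_right hr' Nat.card_pos
      rw [← hcT, ← f.ker.card_mul_index, Subgroup.index_ker, mul_comm p]
      exact Nat.mul_le_mul hk hr''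
    have hdvd : Nat.card P ∣ Nat.card ↥(normalizerIn S P) := Subgroup.card_dvd_of_le hNle
    have hNP : Nat.card ↥(normalizerIn S P) = p * Nat.card P := by
      obtain ⟨c, hc'⟩ := hdvd
      obtain ⟨k, hk⟩ := (hS.to_le inf_le_left).exists_card_eq (G := normalizerIn S P)
      obtain ⟨l, hl⟩ := (hS.to_le hPS).exists_card_eq (G := P)
      have hkl : l + 1 ≤ k := by
        rw [hk, hl] at hlt'
        exact (Nat.pow_lt_pow_iff_right hp.one_lt).1 hlt'
      refine le_antisymm ?_ ?_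
      · rw [hNcard, hPcard]; exact Nat.mul_le_mul_left _ hNA
      · rw [hk, hl, ← pow_succ']
        exact Nat.pow_le_pow_right hp.pos hkl
    have hZ2A : ctr2 S ≤ A := by
      by_contra h
      have hall : A ≤ normalizerIn S P := fun u hu =>
        hnorm_of u hu (D.class_two h (D.le hu) hxS)
      rw [inf_eq_right.2 hall] at hNcard
      -- then `P` is abelian of index `p`
      have hPc : IsMulCommutative P := by
        refine ⟨⟨fun u v => ?_⟩⟩
        obtain ⟨b, hb, i, hu⟩ := hsplit u u.2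
        obtain ⟨b', hb', j, hv⟩ := hsplit v v.2
        apply Subtype.ext
        show (u : Ω) * v = v * u
        rw [hu, hv]
        have c1 : ∀ c ∈ B, ∀ s ∈ S, Commute c s := fun c hc s hs =>
          ((mem_ctr.1 (hab ▸ hc)).2 s hs).symm
        exact ((Commute.mul_left ((c1 b hb b' (D.le hb'.2)).mul_right (c1 b hb _ (S.zpow_mem hxS j)))
          ((c1 b' hb' _ (S.zpow_mem hxS i)).symm.mul_right (Commute.zpow_zpow_self x i j)))).eq
      have hSN : normalizerIn S P = S := by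
        refine le_antisymm inf_le_left fun s hs => ?_
        obtain ⟨u, hu, i, rfl⟩ := D.exists_eq_mul hxS hxA hs
        exact Subgroup.mul_mem _ (hall hu) (hNle (P.zpow_mem hx i))
      have hidx : (P.subgroupOf S).index = p := by
        have h1 := (P.subgroupOf S).card_mul_index
        rw [Nat.card_congr (Subgroup.subgroupOfEquivOfLe hPS).toEquiv] at h1
        rw [hSN, mul_comm] at hNP
        exact Nat.eq_of_mul_eq_mul_left Nat.card_pos (h1.trans hNP)
      exact hPA (huniq P hPS hPc hidx)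
    have hZ2 : normalizerIn S P ⊓ A = ctr2 S := by
      apply le_antisymm
      · rintro u ⟨hu, huA⟩
        exact (D.mem_ctr2_iff hxS hxA huA).2 (hab ▸ hkey ⟨u, huA⟩ hu)
      · intro u hu
        exact ⟨hnorm_of u (hZ2A hu) ((mem_ctr2.1 hu).2 x hxS), hZ2A hu⟩
    refine ⟨hZ2A, ?_, ⟨x, hx, hxA, Or.inl (hab ▸ hPgen)⟩, Or.inl hab, hNP⟩
    rw [← hZ2, ← hab]
    have : p * Nat.card ↥(normalizerIn S P ⊓ A) = p * (p * Nat.card B) := by rw [← hNcard, hNP, hPcard]
    exact Nat.eq_of_mul_eq_mul_left hp.pos this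
  · -- nonabelian case
    have hBeq : Nat.card B = p * Nat.card ↥(ctr S) := by
      obtain ⟨c, hc'⟩ := Subgroup.card_dvd_of_le hZB
      obtain ⟨k, hk⟩ := (hS.to_le (hBA.trans D.le)).exists_card_eq (G := B)
      obtain ⟨l, hl⟩ := (hS.to_le (ctr_le (S := S))).exists_card_eq
      haveI : Finite B := H93.finite_of_le (S := S) (hBA.trans D.le)
      have hlt2 : Nat.card ↥(ctr S) < Nat.card B :=
        lt_of_le_of_ne (Subgroup.card_le_of_le hZB) fun e => hab (Subgroup.eq_of_le_of_card_ge hZB e.ge).symm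
      refine le_antisymm hBcard ?_
      rw [hk, hl] at hlt2 ⊢
      rw [← pow_succ']
      exact Nat.pow_le_pow_right hp.pos ((Nat.pow_lt_pow_iff_right hp.one_lt).1 hlt2)
    haveI : Finite B := H93.finite_of_le (S := S) (hBA.trans D.le)
    have hBx : ∀ b ∈ B, ⁅b, x⁆ ∈ B := fun b hb => by
      refine ⟨?_, ?_⟩
      · rw [commutatorElement_def]
        exact P.mul_mem (P.mul_mem (P.mul_mem hb.1 hx) (P.inv_mem hb.1)) (P.inv_mem hx)
      · exact (D.delta hxS ⟨b, hb.2⟩).2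
    -- commutators of `B` with `x` are central
    have hBZ : ∀ b ∈ B, ⁅b, x⁆ ∈ ctr S := by
      intro b hb
      by_contra hnot
      -- the image of `B` has order `p`
      let T : Subgroup A := B.subgroupOf A
      let f : T →* A := (D.delta hxS).comp T.subtype
      have hfr : Nat.card f.range = p := by
        have h1 := f.ker.card_mul_index
        rw [Subgroup.index_ker, Nat.card_congr (Subgroup.subgroupOfEquivOfLe hBA).toEquiv, hBeq] at h1
        have h2 : Nat.card f.ker = Nat.card ↥(ctr S) := Nat.card_congr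
          ⟨fun t => ⟨((t.1 : A) : Ω), (D.delta_eq_one hxS hxA _).1 t.2⟩,
            fun z => ⟨⟨⟨z, hBA (hZB z.2)⟩, hZB z.2⟩, (D.delta_eq_one hxS hxA _).2 z.2⟩,
            fun t => rfl, fun z => rfl⟩
        rw [h2, mul_comm p] at h1
        exact Nat.eq_of_mul_eq_mul_left Nat.card_pos h1
      let w : A := D.delta hxS ⟨b, hb.2⟩
      have hwB : (w : Ω) ∈ B := hBx b hb
      have hw2 : D.delta hxS w ≠ 1 := fun h => hnot ((D.delta_eq_one hxS hxA w).1 h)
      have hwr : w ∈ f.range := ⟨⟨⟨b, hb.2⟩, hb⟩, rfl⟩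
      have hw2r : D.delta hxS w ∈ f.range := ⟨⟨w, hwB⟩, rfl⟩
      have hz : (⟨w, hwr⟩ : f.range) ∈ Subgroup.zpowers (⟨D.delta hxS w, hw2r⟩ : f.range) :=
        mem_zpowers_of_prime_card hfr fun h => hw2 (congrArg Subtype.val h)
      obtain ⟨m, hm⟩ := Subgroup.mem_zpowers_iff.1 hz
      have hm' : D.delta hxS (w ^ m) = w := by rw [map_zpow]; exact congrArg Subtype.val hm
      have hit : ∀ k : ℕ, (D.delta hxS)^[k] (w ^ m ^ k) = w := by
        intro k
        induction k with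
        | zero => simp
        | succ k ih => rw [Function.iterate_succ_apply, pow_succ', zpow_mul, map_zpow, hm', ih]
      haveI : Group.IsNilpotent S := hS.isNilpotent
      obtain ⟨N, hN⟩ := (Subgroup.isNilpotent_iff_lowerCentralSeries S).1 hS.isNilpotent
      have := D.iterate_mem_lcs hxS (w ^ m ^ N) N
      rw [hit, hN, Subgroup.mem_bot] at this
      exact hnot (show (w : Ω) ∈ ctr S by rw [this]; exact one_mem _)
    have hBle : B ≤ ctr2 S := fun b hb => (D.mem_ctr2_iff hxS hxA hb.2).2 (hBZ b hb)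
    -- the centre of `P`
    let W : Subgroup Ω := P ⊓ Subgroup.centralizer (P : Set Ω)
    have hWZ : W ≤ ctr S := by
      rintro z ⟨hzP, hzC⟩
      have hzC' := Subgroup.mem_centralizer_iff.1 hzC
      by_cases hzA : z ∈ A
      · exact (D.mem_ctr_iff hxS hxA hzA).2 (hzC' x hx)
      · exfalso
        refine hab (le_antisymm (fun b hb => (D.mem_ctr_iff (hPS hzP) hzA hb.2).2 (hzC' b hb.1).symm) hZB)
    have hZW : ctr S ≤ W := fun z hz =>
      ⟨hZP hz, Subgroup.mem_centralizer_iff.2 fun s hs => (mem_ctr.1 hz).2 s (hPS hs)⟩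
    have hWinv : ∀ β ∈ F.autGroup P, ∀ y : P, (y : Ω) ∈ W → ((β y : P) : Ω) ∈ W := by
      intro β _ y hy
      refine ⟨(β y).2, Subgroup.mem_centralizer_iff.2 fun s hs => ?_⟩
      obtain ⟨v, hv⟩ := β.surjective ⟨s, hs⟩
      have e : v * y = y * v := Subtype.ext (Subgroup.mem_centralizer_iff.1 hy.2 v v.2)
      have e2 := congrArg (fun q => ((β q : P) : Ω)) e
      simpa [map_mul, hv] using e2
    have hstab : ∀ u ∈ A, ⁅u, x⁆ ∈ ctr S → u ∈ P := by
      intro u hu hux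
      have hu2 : u ∈ ctr2 S := (D.mem_ctr2_iff hxS hxA hu).2 hux
      exact mem_of_stab hS hc hr hWinv (D.le hu) (hnorm_of u hu hux).2
        (fun w hw _ => by rw [(mem_ctr.1 (hWZ hw)).2 u (D.le hu), mul_inv_cancel_right])
        (fun y hy => hZW ((mem_ctr2.1 hu2).2 y (hPS hy)))
    have hZ2A : ctr2 S ≤ A := by
      by_contra h
      exact haP (hstab a haA (D.class_two h haN.1 hxS))
    have hB2eq : B = ctr2 S := le_antisymm hBle fun u hu =>
      ⟨hstab u (hZ2A hu) ((mem_ctr2.1 hu).2 x hxS), hZ2A hu⟩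
    have hNA : Nat.card ↥(normalizerIn S P ⊓ A) ≤ p * Nat.card B := by
      let T : Subgroup A := (normalizerIn S P).subgroupOf A
      have hmemT : ∀ t : T, ((D.delta hxS (t : A) : A) : Ω) ∈ B := fun t => hkey t t.2
      haveI : (((ctr S).subgroupOf A)).Normal :=
        ⟨fun z hz g => by
          rw [show g * z * g⁻¹ = z from Subtype.ext (by
            simp only [Subgroup.coe_mul, Subgroup.coe_inv]
            rw [D.commute_of_mem g.2 z.2, mul_inv_cancel_right])]
          exact hz⟩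
      let f : T →* A ⧸ (ctr S).subgroupOf A :=
        (QuotientGroup.mk' _).comp ((D.delta hxS).comp T.subtype)
      have hrange : f.range ≤ (B.subgroupOf A).map (QuotientGroup.mk' ((ctr S).subgroupOf A)) := by
        rintro _ ⟨t, rfl⟩
        exact ⟨_, hmemT t, rfl⟩
      have h1 : Nat.card f.range ≤ p := by
        refine (Subgroup.card_le_of_le hrange).trans ?_
        have h := ((QuotientGroup.mk' ((ctr S).subgroupOf A)).comp (B.subgroupOf A).subtype).ker.card_mul_index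
        rw [Subgroup.index_ker, MonoidHom.range_comp, Subgroup.range_subtype,
          Nat.card_congr (Subgroup.subgroupOfEquivOfLe hBA).toEquiv, hBeq] at h
        have h2 : Nat.card ((QuotientGroup.mk' ((ctr S).subgroupOf A)).comp (B.subgroupOf A).subtype).ker =
            Nat.card ↥(ctr S) := Nat.card_congr
          ⟨fun t => ⟨((t.1 : A) : Ω), Subgroup.mem_subgroupOf.1 ((QuotientGroup.eq_one_iff (N := (ctr S).subgroupOf A) (t.1 : A)).1 t.2)⟩,
            fun z => ⟨⟨⟨z, hBA (hZB z.2)⟩, hZB z.2⟩, (QuotientGroup.eq_one_iff (N := (ctr S).subgroupOf A) (⟨z, hBA (hZB z.2)⟩ : A)).2 z.2⟩,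
            fun t => rfl, fun z => rfl⟩
        rw [h2, mul_comm p] at h
        exact (Nat.eq_of_mul_eq_mul_left Nat.card_pos h).le
      have hk : Nat.card f.ker ≤ Nat.card B := by
        refine Nat.card_le_card_of_injective (fun t => (⟨((t.1 : A) : Ω), ?_⟩ : B)) fun s t h => ?_
        · have := (QuotientGroup.eq_one_iff _).1 t.2
          rw [hB2eq]
          exact (D.mem_ctr2_iff hxS hxA (t.1 : A).2).2 this
        · exact Subtype.ext (Subtype.ext (Subtype.ext (congrArg Subtype.val h :)))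
      have hcT : Nat.card T = Nat.card ↥(normalizerIn S P ⊓ A) :=
        Nat.card_congr
          ⟨fun t => ⟨((t : A) : Ω), t.2, (t : A).2⟩, fun t => ⟨⟨t.1, t.2.2⟩, t.2.1⟩,
            fun t => rfl, fun t => rfl⟩
      rw [← hcT, ← f.ker.card_mul_index, Subgroup.index_ker, mul_comm p]
      exact Nat.mul_le_mul hk h1
    refine ⟨hZ2A, hB2eq ▸ hBeq, ⟨x, hx, hxA, Or.inr (hB2eq ▸ hPgen)⟩, Or.inr hB2eq, ?_⟩
    obtain ⟨k, hk⟩ := (hS.to_le inf_le_left).exists_card_eq (G := normalizerIn S P)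
    obtain ⟨l, hl⟩ := (hS.to_le hPS).exists_card_eq (G := P)
    refine le_antisymm ?_ ?_
    · rw [hNcard, hPcard]; exact Nat.mul_le_mul_left _ hNA
    · rw [hk, hl] at hlt' ⊢
      rw [← pow_succ']
      exact Nat.pow_le_pow_right hp.pos ((Nat.pow_lt_pow_iff_right hp.one_lt).1 hlt')

end Cfsg.Agent.H80.UA
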