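import Cfsg.Agent.H80.UA.Essential

/-!
Commutator subgroup and lower central series of a `p`-group with an abelian subgroup of index `p` and small
second centre.
-/
set_option autoImplicit false

namespace Cfsg.Agent.H80.UA

open scoped commutatorElement

variable {Ω : Type*} [Group Ω] {S A : Subgroup Ω} {p : ℕ} [Finite S] [Fact p.Prime]

theorem index_subgroupOf_of_card {P N : Subgroup Ω} [Finite P] {q : ℕ} (hPN : P ≤ N)
    (h : Nat.card N = q * Nat.card P) : (P.subgroupOf N).index = q := by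
  have h1 := (P.subgroupOf N).card_mul_index
  rw [Nat.card_congr (Subgroup.subgroupOfEquivOfLe hPN).toEquiv, h, mul_comm q] at h1
  exact Nat.eq_of_mul_eq_mul_left Nat.card_pos h1

namespace Setup

variable (D : Setup p S A)

include D

theorem card_S : Nat.card S = p * Nat.card A := by
  rw [← D.index, ← Nat.card_congr (Subgroup.subgroupOfEquivOfLe D.le).toEquiv, mul_comm]
  exact ((A.subgroupOf S).card_mul_index).symm

/-- The image of `A` under commutation with `x`. -/
def deltaImage {x : Ω} (hx : x ∈ S) : Subgroup Ω := (D.delta hx).range.map A.subtype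

theorem commutator_eq {x : Ω} (hx : x ∈ S) (hxA : x ∉ A) :
    (commutator S).map S.subtype = D.deltaImage hx := by
  rw [Subgroup.map_subtype_commutator]
  refine le_antisymm ?_ ?_
  · set L : Subgroup Ω := D.deltaImage hx with hL
    have hLA : L ≤ A := Subgroup.map_subtype_le _
    have hmem : ∀ a : A, ⁅(a : Ω), x⁆ ∈ L := fun a => ⟨_, ⟨a, rfl⟩, rfl⟩
    have hnormal : (L.subgroupOf S).Normal := by
      refine ⟨fun l hl g => ?_⟩
      obtain ⟨b, hb, i, hbi⟩ := D.exists_eq_mul hx hxA g.2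
      obtain ⟨_, ⟨a, rfl⟩, hal⟩ := Subgroup.mem_subgroupOf.1 hl
      refine Subgroup.mem_subgroupOf.2 ?_
      show (g : Ω) * (l : Ω) * (g : Ω)⁻¹ ∈ L
      rw [hbi, ← hal, mul_inv_rev]
      have hxi : x ^ i ∈ S := S.zpow_mem hx i
      have e : x ^ i * ⁅(a : Ω), x⁆ * (x ^ i)⁻¹ = ⁅x ^ i * (a : Ω) * (x ^ i)⁻¹, x⁆ := by
        rw [commutatorElement_def, commutatorElement_def]
        group
      show b * x ^ i * ⁅(a : Ω), x⁆ * ((x ^ i)⁻¹ * b⁻¹) ∈ L
      rw [show b * x ^ i * ⁅(a : Ω), x⁆ * ((x ^ i)⁻¹ * b⁻¹) = b * (x ^ i * ⁅(a : Ω), x⁆ * (x ^ i)⁻¹) * b⁻¹ by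
        group, e]
      have hm := hmem ⟨_, D.conj_mem hxi a.2⟩
      rw [D.commute_of_mem hb (hLA hm), mul_inv_cancel_right]
      exact hm
    refine Subgroup.commutator_le.2 fun s hs t ht => ?_
    obtain ⟨a, ha, i, rfl⟩ := D.exists_eq_mul hx hxA hs
    obtain ⟨b, hb, j, rfl⟩ := D.exists_eq_mul hx hxA ht
    let q := QuotientGroup.mk' (L.subgroupOf S)
    have hc : ∀ c (hc : c ∈ A), Commute (q ⟨c, D.le hc⟩) (q ⟨x, hx⟩) := fun c hc => by
      rw [← commutatorElement_eq_one_iff_commute, ← map_commutatorElement]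
      exact (QuotientGroup.eq_one_iff (N := L.subgroupOf S) _).2 (Subgroup.mem_subgroupOf.2 (hmem ⟨c, hc⟩))
    have hab : Commute (q ⟨a, D.le ha⟩) (q ⟨b, D.le hb⟩) :=
      Commute.map (Subtype.ext (D.commute_of_mem ha hb)) q
    have h : Commute (q (⟨a, D.le ha⟩ * ⟨x, hx⟩ ^ i)) (q (⟨b, D.le hb⟩ * ⟨x, hx⟩ ^ j)) := by
      rw [map_mul, map_mul, map_zpow, map_zpow]
      exact Commute.mul_left (hab.mul_right ((hc a ha).zpow_right j))
        (((hc b hb).symm.zpow_left i).mul_right (Commute.zpow_zpow_self _ i j))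
    rw [← commutatorElement_eq_one_iff_commute, ← map_commutatorElement, QuotientGroup.mk'_apply,
      QuotientGroup.eq_one_iff, Subgroup.mem_subgroupOf] at h
    simpa [commutatorElement_def] using h
  · rintro _ ⟨_, ⟨a, rfl⟩, rfl⟩
    exact Subgroup.commutator_mem_commutator (D.le a.2) hx

/-- The image of a subgroup between the centre and `A`. -/
theorem card_image {x : Ω} (hx : x ∈ S) (hxA : x ∉ A) {K : Subgroup A} (hK : (ctr S).subgroupOf A ≤ K) :
    Nat.card ↥(K.map (D.delta hx)) * Nat.card ↥(ctr S) = Nat.card K := by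
  let f : K →* A := (D.delta hx).comp K.subtype
  have hr : f.range = K.map (D.delta hx) := by
    rw [MonoidHom.range_comp, Subgroup.range_subtype]
  have hk : Nat.card f.ker = Nat.card ↥(ctr S) := Nat.card_congr
    ⟨fun t => ⟨((t.1 : A) : Ω), (D.delta_eq_one hx hxA _).1 t.2⟩,
      fun z => ⟨⟨⟨z, D.ctr_le_A z.2⟩, hK (Subgroup.mem_subgroupOf.2 z.2)⟩, (D.delta_eq_one hx hxA _).2 z.2⟩,
      fun t => rfl, fun z => rfl⟩
  rw [← hr, ← Subgroup.index_ker, ← hk, mul_comm]
  exact f.ker.card_mul_index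

/-- The commutator subgroup meets the centre in the commutators of the second centre. -/
theorem card_ctr_inf_commutator {x : Ω} (hx : x ∈ S) (hxA : x ∉ A) (h2 : ctr2 S ≤ A)
    (hc : Nat.card ↥(ctr2 S) = p * Nat.card ↥(ctr S)) :
    Nat.card ↥(ctr S ⊓ (commutator S).map S.subtype) = p := by
  haveI := H93.finite_of_le (S := S) (ctr_le (S := S))
  have hK : (ctr S).subgroupOf A ≤ (ctr2 S).subgroupOf A := Subgroup.comap_mono ctr_le_ctr2
  have h := D.card_image hx hxA hK
  rw [Nat.card_congr (Subgroup.subgroupOfEquivOfLe h2).toEquiv, hc] at h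
  have e : ctr S ⊓ (commutator S).map S.subtype = (((ctr2 S).subgroupOf A).map (D.delta hx)).map A.subtype := by
    rw [D.commutator_eq hx hxA]
    ext y
    constructor
    · rintro ⟨hy, _, ⟨a, rfl⟩, rfl⟩
      exact ⟨_, ⟨a, Subgroup.mem_subgroupOf.2 ((D.mem_ctr2_iff hx hxA a.2).2 hy), rfl⟩, rfl⟩
    · rintro ⟨_, ⟨a, ha, rfl⟩, rfl⟩
      exact ⟨(D.mem_ctr2_iff hx hxA a.2).1 (Subgroup.mem_subgroupOf.1 ha), _, ⟨a, rfl⟩, rfl⟩
  rw [e, Nat.card_congr (Subgroup.equivMapOfInjective _ A.subtype A.subtype_injective).toEquiv.symm]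
  exact Nat.eq_of_mul_eq_mul_right Nat.card_pos h

theorem card_commutator {x : Ω} (hx : x ∈ S) (hxA : x ∉ A) :
    Nat.card ↥((commutator S).map S.subtype) * Nat.card ↥(ctr S) = Nat.card A := by
  have h := D.card_image hx hxA (K := ⊤) le_top
  rw [Subgroup.card_top] at h
  rw [D.commutator_eq hx hxA, deltaImage, MonoidHom.range_eq_map,
    Nat.card_congr (Subgroup.equivMapOfInjective _ A.subtype A.subtype_injective).toEquiv.symm]
  exact h

/-- `S` modulo its centre has maximal class. -/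
theorem not_lcs_le_ctr {x : Ω} (hx : x ∈ S) (hxA : x ∉ A) (h2 : ctr2 S ≤ A)
    (hc : Nat.card ↥(ctr2 S) = p * Nat.card ↥(ctr S)) {k : ℕ}
    (hk : p ^ k * Nat.card ↥(ctr S) < Nat.card A) : ¬ Subgroup.lowerCentralSeries S k ≤ ctr S := by
  haveI := D.finiteA
  haveI := H93.finite_of_le (S := S) (ctr_le (S := S))
  let Z : Subgroup A := (ctr S).subgroupOf A
  haveI : Z.Normal := ⟨fun z hz g => by
    rw [show g * z * g⁻¹ = z from Subtype.ext (by
      simp only [Subgroup.coe_mul, Subgroup.coe_inv]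
      rw [D.commute_of_mem g.2 z.2, mul_inv_cancel_right])]
    exact hz⟩
  let Lk : ℕ → Subgroup A := fun i => (fun K => K.map (D.delta hx))^[i] ⊤
  have hle : ∀ i, ∀ a ∈ Lk i, (a : Ω) ∈ Subgroup.lowerCentralSeries S i := by
    intro i
    induction i with
    | zero => exact fun a _ => D.le a.2
    | succ i ih =>
      intro a ha
      simp only [Lk, Function.iterate_succ_apply'] at ha
      obtain ⟨b, hb, rfl⟩ := ha
      exact Subgroup.commutator_mem_commutator (ih b hb) hx
  have hcard : ∀ i, Nat.card A ≤ p ^ i * Nat.card ↥(Lk i ⊔ Z) := by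
    intro i
    induction i with
    | zero =>
      simp only [Lk, Function.iterate_zero, id_eq, top_sup_eq, Subgroup.card_top, pow_zero, one_mul, le_refl]
    | succ i ih =>
      refine ih.trans ?_
      rw [pow_succ, mul_assoc]
      refine Nat.mul_le_mul_left _ ?_
      have h := D.card_image hx hxA (K := Lk i ⊔ Z) le_sup_right
      have hm : (Lk i ⊔ Z).map (D.delta hx) = Lk (i + 1) := by
        rw [Subgroup.map_sup, show Z.map (D.delta hx) = ⊥ from ?_, sup_bot_eq]
        · simp only [Lk, Function.iterate_succ_apply']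
        · rw [Subgroup.map_eq_bot_iff]
          exact fun z hz => (D.delta_eq_one hx hxA z).2 (Subgroup.mem_subgroupOf.1 hz)
      rw [hm] at h
      rw [← h]
      -- order of the join
      have hsup := Subgroup.relIndex_sup_right (H := Lk (i + 1)) (K := Z)
      have h1 := Subgroup.relIndex_mul_relIndex ⊥ Z (Lk (i + 1) ⊔ Z) bot_le le_sup_right
      rw [hsup, Subgroup.relIndex_bot_left, Subgroup.relIndex_bot_left] at h1
      have h22 := Subgroup.relIndex_mul_relIndex ⊥ (Z ⊓ Lk (i + 1)) (Lk (i + 1)) bot_le inf_le_right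
      rw [Subgroup.relIndex_bot_left, Subgroup.relIndex_bot_left, Subgroup.inf_relIndex_right] at h22
      have h3 : Nat.card ↥(Z ⊓ Lk (i + 1)) ≤ p := by
        rw [← D.card_ctr_inf_commutator hx hxA h2 hc]
        haveI := H93.finite_of_le (S := S) (show ctr S ⊓ (commutator S).map S.subtype ≤ S from inf_le_left.trans ctr_le)
        refine Nat.card_le_card_of_injective (fun a => (⟨((a : A) : Ω), a.2.1, ?_⟩ :
          ↥(ctr S ⊓ (commutator S).map S.subtype))) fun a b hab =>
            Subtype.ext (Subtype.ext (congrArg Subtype.val hab :))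
        obtain ⟨-, ha⟩ := a.2
        simp only [Lk, Function.iterate_succ_apply'] at ha
        obtain ⟨b, -, hb⟩ := ha
        rw [D.commutator_eq hx hxA, ← hb]
        exact ⟨_, ⟨b, rfl⟩, rfl⟩
      rw [← h22, ← h1, ← Nat.card_congr (Subgroup.subgroupOfEquivOfLe (D.ctr_le_A)).toEquiv]
      calc Nat.card ↥(Z ⊓ Lk (i + 1)) * Z.relIndex (Lk (i + 1)) * Nat.card Z
          ≤ p * Z.relIndex (Lk (i + 1)) * Nat.card Z := by gcongr
        _ = _ := by ring
  intro hsmall
  have hZ : Lk k ⊔ Z ≤ Z := sup_le (fun a ha => Subgroup.mem_subgroupOf.2 (hsmall (hle k a ha))) le_rfl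
  have h4 := (hcard k).trans (Nat.mul_le_mul_left _ (Subgroup.card_le_of_le hZ))
  rw [Nat.card_congr (Subgroup.subgroupOfEquivOfLe D.ctr_le_A).toEquiv] at h4
  omega

end Setup

end Cfsg.Agent.H80.UA
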